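import Cfsg.Agent.H12.CLSpec

/-! CL3 tower, chapter 3, slot REG. -/

set_option autoImplicit false
set_option linter.style.haveILetI false

open Module

namespace H42.CL

open H12.CL

theorem jobREG : H12.CL.JobREG := by
  intro r _ K V W _ _ _ _ _ _ _ _ _ _ S ty M N D v₀ P fr pt hr x hx x0
  classical
  haveI : Fintype W := Fintype.ofFinite W
  have skew : ∀ a b, S.B a b = -S.B b a := fun a b => by
    have := S.sp.alt (a + b)
    simp only [map_add, LinearMap.add_apply, S.sp.alt] at this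
    linear_combination this
  have tinj : ∀ a v, S.t a v = 0 → v = 0 := fun a v h => by
    obtain ⟨c, c0, e⟩ := S.t_mul (-a) a
    have := LinearMap.congr_fun e v
    rw [End.mul_apply, h, map_zero, neg_add_cancel, S.t_zero] at this
    exact (smul_eq_zero.1 this.symm).resolve_left c0
  have χ0 : S.χ 0 = 1 := (S.χ_eq 0).2 rfl
  have cm0 : S.Cm M v₀ 0 v₀ := fun m _ c h => by rw [map_zero, χ0, one_mul, h]
  have cmt : ∀ w v a, S.Cm M v₀ w v → S.Cm M v₀ (w + a) (S.t a v) := fun w v a h m hm c hc => by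
    rw [← End.mul_apply, S.comm, LinearMap.smul_apply, End.mul_apply, h m hm c hc, map_smul,
      smul_smul, map_add, S.χ_add]
    congr 1
    ring
  have ndM : ∀ m ∈ M, (∀ n ∈ N, S.B m n = 0) → m = 0 := fun m hm h => S.sp.nd m fun w => by
    obtain ⟨m', hm', n, hn, d, hd, rfl⟩ := fr.dec w
    rw [map_add, map_add, fr.iM m hm m' hm', h n hn, fr.oM m hm d hd, add_zero, add_zero]
  have ndN : ∀ n ∈ N, n ∈ M ⊔ D → n = 0 := fun n hn h => S.sp.nd n fun w => by
    obtain ⟨m', hm', n', hn', d', hd', rfl⟩ := fr.dec w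
    rw [map_add, map_add, fr.iN n hn n' hn', fr.oN n hn d' hd', add_zero, add_zero]
    obtain ⟨m, hm, d, hd, rfl⟩ := Submodule.mem_sup.1 h
    rw [skew, map_add, fr.iM m' hm' m hm, fr.oM m' hm' d hd, add_zero, neg_zero]
  obtain ⟨n₁, hn₁, b₁⟩ : ∃ n₁ ∈ N, S.B x n₁ = 1 := by
    by_contra h
    refine x0 (ndM x hx fun n hn => by_contra fun k => h ⟨(S.B x n)⁻¹ • n, N.smul_mem _ hn, ?_⟩)
    rw [map_smul, smul_eq_mul, inv_mul_cancel₀ k]
  have red : ∀ n ∈ N, n - S.B x n • n₁ ∈ N ∧ S.B x (n - S.B x n • n₁) = 0 := fun n hn =>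
    ⟨N.sub_mem hn (N.smul_mem _ hn₁), by rw [map_sub, map_smul, b₁, smul_eq_mul, mul_one, sub_self]⟩
  obtain ⟨a₀, a0, ha₀⟩ : ∃ a₀ : W, a₀ ≠ 0 ∧
      ∀ n ∈ N, S.B x n = 0 → n ≠ 0 → a₀ ∈ N ∧ S.B x a₀ = 0 := by
    by_cases h : ∃ n ∈ N, S.B x n = 0 ∧ n ≠ 0
    · obtain ⟨n, h1, h2, h3⟩ := h
      exact ⟨n, h3, fun _ _ _ _ => ⟨h1, h2⟩⟩
    · exact ⟨x, x0, fun n h1 h2 h3 => (h ⟨n, h1, h2, h3⟩).elim⟩
  let A : Finset W := Finset.univ.filter fun a => (a ∈ N ∧ S.B x a = 0) ∧ a ≠ a₀
  have mA : ∀ a, a ∈ A ↔ (a ∈ N ∧ S.B x a = 0) ∧ a ≠ a₀ := fun a => by simp [A]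
  have A0 : (0 : W) ∈ A := (mA 0).2 ⟨⟨N.zero_mem, map_zero _⟩, a0.symm⟩
  have key : ∀ (u : W → V) (f : W), (∀ a, S.Cm M v₀ (a + f) (u a)) → ∀ b ∈ N,
      P (b + f) (∑ a ∈ A, u a) = if b ∈ A then u b else 0 := fun u f hu b hb => by
    rw [map_sum, ← Finset.sum_ite_eq]
    refine Finset.sum_congr rfl fun a ha => ?_
    split_ifs with h
    · exact pt.self _ _ _ (hu a) (by rw [h, sub_self]; exact zero_mem _)
    · refine pt.zero _ _ _ (hu a) fun k => h (sub_eq_zero.1 (ndN _ (N.sub_mem hb ((mA a).1 ha).1.1) ?_))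
      rwa [add_sub_add_right_eq_sub] at k
  have cma : ∀ a, S.Cm M v₀ a (S.t a v₀) := fun a => by simpa using cmt 0 v₀ a cm0
  refine ⟨∑ a ∈ A, S.t a v₀, fun e => ⟨fun ⟨c, hc⟩ => ?_, fun he => ?_⟩⟩
  · have v0 : ∑ a ∈ A, S.t a v₀ ≠ 0 := fun k => by
      have := key (fun a => S.t a v₀) 0 (fun a => by rw [add_zero]; exact cma a) 0 N.zero_mem
      rw [k, map_zero, if_pos A0, S.t_zero] at this
      exact pt.ne this.symm
    have c0 : c ≠ 0 := fun k => v0 (tinj e _ (by rw [hc, k, zero_smul]))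
    obtain ⟨m, hm, n, hn, d, hd, he⟩ := fr.dec e
    have main : ∀ b ∈ A, b + n ∈ A ∧ S.t e (S.t b v₀) = c • S.t (b + n) v₀ := fun b hb => by
      have bN := ((mA b).1 hb).1.1
      have h1 := key (fun a => S.t e (S.t a v₀)) e (fun a => cmt _ _ _ (cma a)) b bN
      have h2 := key (fun a => S.t a v₀) (m + d) (fun a m' hm' c' hc' => by
        rw [map_add, map_add, fr.iM m' hm' m hm, fr.oM m' hm' d hd, add_zero, add_zero]
        exact cma a m' hm' c' hc') (b + n) (N.add_mem bN hn)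
      rw [← map_sum, hc, map_smul, if_pos hb, show b + e = b + n + (m + d) by rw [he]; abel,
        h2] at h1
      split_ifs at h1 with h
      · exact ⟨h, h1.symm⟩
      · rw [smul_zero] at h1
        exact (pt.ne (tinj _ _ (tinj _ _ h1.symm))).elim
    have n0 : n = 0 := by
      by_contra k
      have h1 := (mA _).1 (main 0 A0).1
      rw [zero_add] at h1
      obtain ⟨h2, h3⟩ := ha₀ n h1.1.1 h1.1.2 k
      have h4 := (mA _).1 (main (a₀ - n) ((mA _).2 ⟨⟨N.sub_mem h2 hn, by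
        rw [map_sub, h3, h1.1.2, sub_zero]⟩, fun e => k (sub_eq_self.1 e)⟩)).1
      exact h4.2 (sub_add_cancel _ _)
    have d0 : d = 0 := by
      refine fr.an d hd ?_
      rcases ty with g | ⟨-, Q, q1, q2⟩
      · exact g d
      · have h1 := (q2 e).1 ⟨_, v0, c, hc⟩
        rw [he, n0, add_zero, q1, (q2 m).1 (fr.gM m hm), fr.oM m hm d hd, zero_add, add_zero] at h1
        exact (q2 d).2 h1
    rw [n0, d0, add_zero, add_zero] at he
    subst he
    have ev : S.t e v₀ = c • v₀ := by simpa [n0, S.t_zero] using (main 0 A0).2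
    have oA : ∀ b ∈ A, S.B e b = 0 := fun b hb => by
      have h1 := (main b hb).2
      rw [n0, add_zero, cma b e hm c ev, ← sub_eq_zero, ← sub_smul, smul_eq_zero] at h1
      have h2 := h1.resolve_right fun k => pt.ne (tinj _ _ k)
      exact (S.χ_eq _).1 (mul_right_cancel₀ c0 (by rw [one_mul]; exact sub_eq_zero.1 h2))
    have oX : ∀ b ∈ N, S.B x b = 0 → S.B e b = 0 := fun b hb xb => by
      by_cases h : b = a₀
      swap
      · exact oA b ((mA b).2 ⟨⟨hb, xb⟩, h⟩)
      subst h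
      rcases hr with hr | hr
      · have := oA (-b) ((mA _).2 ⟨⟨N.neg_mem hb, by rw [map_neg, xb, neg_zero]⟩, fun k => ?_⟩)
        · rwa [map_neg, neg_eq_zero] at this
        · have h2 : (2 : ZMod r) ≠ 0 := fun z => hr ((Nat.prime_dvd_prime_iff_eq Fact.out
            Nat.prime_two).1 ((ZMod.natCast_eq_zero_iff 2 r).1 (by exact_mod_cast z)))
          refine a0 ((smul_eq_zero.1 (?_ : (2 : ZMod r) • b = 0)).resolve_left h2)
          rw [two_smul]
          exact neg_eq_iff_add_eq_zero.1 k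
      · obtain ⟨z, hz, xz, zb⟩ : ∃ z ∈ N, S.B x z = 0 ∧ z ∉ Submodule.span (ZMod r) {b} := by
          by_contra k
          push Not at k
          have h1 : N ≤ Submodule.span (ZMod r) (({b, n₁} : Finset W) : Set W) := fun n hn => by
            rw [← sub_add_cancel n (S.B x n • n₁)]
            refine add_mem (Submodule.span_mono (by simp) (k _ (red n hn).1 (red n hn).2))
              (Submodule.smul_mem _ _ (Submodule.subset_span (by simp)))
          have h2 := (Submodule.finrank_mono h1).trans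
            ((finrank_span_finset_le_card _).trans Finset.card_le_two)
          have h3 : finrank (ZMod r) M ≤ finrank (ZMod r) (Dual (ZMod r) N) :=
            LinearMap.finrank_le_finrank_of_injective (f := S.B.domRestrict₁₂ M N)
              ((injective_iff_map_eq_zero _).2 fun m k => Subtype.ext
                (ndM m m.2 fun n hn => LinearMap.congr_fun k ⟨n, hn⟩))
          rw [Subspace.dual_finrank_eq] at h3
          omega
        have h1 := oA z ((mA _).2 ⟨⟨hz, xz⟩, fun k => zb (k ▸ Submodule.mem_span_singleton_self _)⟩)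
        have h2 := oA (b - z) ((mA _).2 ⟨⟨N.sub_mem hb hz, by rw [map_sub, xb, xz, sub_zero]⟩,
          fun k => zb (by rw [sub_eq_self.1 k]; exact zero_mem _)⟩)
        rwa [map_sub, h1, sub_zero] at h2
    refine Submodule.mem_span_singleton.2 ⟨S.B e n₁, (sub_eq_zero.1 (ndM _
      (M.sub_mem hm (M.smul_mem _ hx)) fun n hn => ?_)).symm⟩
    have := oX _ (red n hn).1 (red n hn).2
    rw [map_sub, map_smul, smul_eq_mul] at this
    rw [map_sub, map_smul, LinearMap.sub_apply, LinearMap.smul_apply, smul_eq_mul]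
    linear_combination this
  · obtain ⟨j, rfl⟩ := Submodule.mem_span_singleton.1 he
    obtain ⟨c, hc⟩ := (pt.st _).2 (M.smul_mem j hx)
    refine ⟨c, ?_⟩
    rw [map_sum, Finset.smul_sum]
    refine Finset.sum_congr rfl fun a ha => ?_
    rw [cma a _ (M.smul_mem j hx) c hc, map_smul, LinearMap.smul_apply, ((mA a).1 ha).1.2,
      smul_zero, χ0, one_mul]

end H42.CL
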