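/- Spec of the PN tower (S3399): fixed points of pronormal subgroups. Blueprint: blueprints/PN.md. -/
import Cfsg.Agent.H2.LnSpec

set_option autoImplicit false
set_option linter.unusedSectionVars false

namespace H42.PN
open Equiv MulAction Pointwise H2.Ln

section
variable {Γ : Type} [Group Γ]

/-- `g K g⁻¹`. -/
def cj (K : Subgroup Γ) (g : Γ) : Subgroup Γ := K.map (MulAut.conj g).toMonoidHom

theorem mem_cj {K : Subgroup Γ} {g x : Γ} : x ∈ cj K g ↔ g⁻¹ * x * g ∈ K := by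
  constructor
  · rintro ⟨y, hy, rfl⟩
    simpa [mul_assoc] using hy
  · intro h
    exact ⟨_, h, by simp [mul_assoc]⟩

/-- `K` is pronormal in `H`. -/
def Pro (H K : Subgroup Γ) : Prop := ∀ g ∈ H, ∃ w ∈ K ⊔ cj K g, cj K w = cj K g

theorem Pro.mono {H L K : Subgroup Γ} (h : Pro H K) (hL : L ≤ H) : Pro L K :=
  fun g hg => h g (hL hg)
end

/-- The theorem for all actions on fewer than `N` points. -/
def IH (N : ℕ) : Prop := ∀ (Γ β : Type) [Group Γ] [Finite Γ] [Fintype β] [MulAction Γ β]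
  (K : Subgroup Γ), Fintype.card β < N → IsPretransitive Γ β → Pro ⊤ K →
  (∃ k ∈ K, ∃ b : β, k • b ≠ b) → 2 * Nat.card {b : β // ∀ k ∈ K, k • b = b} + 1 ≤ Fintype.card β

section
variable {α : Type} [Fintype α] [DecidableEq α]

open Classical in
/-- The fixed points of `K`. -/
noncomputable def fp (K : Subgroup (Perm α)) : Finset α :=
  Finset.univ.filter fun a => ∀ k ∈ K, k a = a

theorem mem_fp {K : Subgroup (Perm α)} {a : α} : a ∈ fp K ↔ ∀ k ∈ K, k a = a := by simp [fp]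

theorem mem_sm {g : Perm α} {U : Finset α} {a : α} : a ∈ g • U ↔ g⁻¹ a ∈ U :=
  Finset.inv_smul_mem_iff.symm

theorem app_mem_sm {g : Perm α} {U : Finset α} {a : α} : g a ∈ g • U ↔ a ∈ U := by simp [mem_sm]

/-- The setwise stabiliser (the pointwise stabiliser is `H2.Ln.fx`). -/
def sw (G : Subgroup (Perm α)) (U : Finset α) : Subgroup (Perm α) := G ⊓ stabilizer (Perm α) U

theorem mem_sw {G : Subgroup (Perm α)} {U : Finset α} {x : Perm α} :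
    x ∈ sw G U ↔ x ∈ G ∧ x • U = U := Iff.rfl

theorem sm_eq_iff {U : Finset α} {x : Perm α} : x • U = U ↔ ∀ a ∈ U, x a ∈ U := by
  refine ⟨fun h a ha => h ▸ app_mem_sm.2 ha, fun h => ?_⟩
  refine Finset.eq_of_subset_of_card_le (fun a ha => ?_) (Finset.card_smul_finset _ _).ge
  simpa using h _ (mem_sm.1 ha)

theorem sm_eq_iff' {U : Finset α} {x : Perm α} : x • U = U ↔ ∀ a, x a ∈ U ↔ a ∈ U :=
  ⟨fun h a => by conv_lhs => rw [← h, app_mem_sm], fun h => sm_eq_iff.2 fun a ha => (h a).2 ha⟩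

/-- The blocks: the images of the fixed point set. -/
noncomputable def bl (G K : Subgroup (Perm α)) : Finset (Finset α) :=
  (el G).image fun g => g • fp K

theorem mem_bl {G K : Subgroup (Perm α)} {B : Finset α} : B ∈ bl G K ↔ ∃ g ∈ G, g • fp K = B := by
  simp [bl, mem_el]

theorem fp_cj (K : Subgroup (Perm α)) (g : Perm α) : fp (cj K g) = g • fp K := by
  ext a
  rw [mem_sm, mem_fp, mem_fp]
  constructor
  · intro h k hk
    have := h (g * k * g⁻¹) (mem_cj.2 (by simpa [mul_assoc] using hk))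
    rw [Perm.eq_inv_iff_eq]
    simpa using this
  · intro h k hk
    have := h _ (mem_cj.1 hk)
    simpa using this

/-- The basic use of pronormality. -/
theorem Pro.ex {H K : Subgroup (Perm α)} (h : Pro H K) {g : Perm α} (hg : g ∈ H) :
    ∃ w, (∀ L : Subgroup (Perm α), K ≤ L → cj K g ≤ L → w ∈ L) ∧ w • fp K = g • fp K := by
  obtain ⟨w, hw, e⟩ := h g hg
  exact ⟨w, fun L h1 h2 => sup_le h1 h2 hw, by rw [← fp_cj, e, fp_cj]⟩

theorem cj_le {H K : Subgroup (Perm α)} (hK : K ≤ H) {g : Perm α} (hg : g ∈ H) : cj K g ≤ H := by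
  intro x hx
  have := H.mul_mem (H.mul_mem hg (hK (mem_cj.1 hx))) (H.inv_mem hg)
  simpa [mul_assoc] using this

/-- `w ∈ H` fixes `F ∩ gF` pointwise and `wF = gF`. -/
theorem Pro.ex_fix {H K : Subgroup (Perm α)} (h : Pro H K) (hK : K ≤ H) {g : Perm α} (hg : g ∈ H) :
    ∃ w ∈ H, (∀ a ∈ fp K, a ∈ g • fp K → w a = a) ∧ w • fp K = g • fp K := by
  obtain ⟨w, hw, e⟩ := h.ex hg
  refine ⟨w, hw H hK (cj_le hK hg), fun a ha hb => ?_, e⟩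
  rw [← fp_cj] at hb
  exact hw (stabilizer (Perm α) a) (fun k hk => mem_fp.1 ha k hk) (fun k hk => mem_fp.1 hb k hk)

/-- Witt's lemma: `g` can be corrected so as to stabilise `F`. -/
theorem Pro.wit {H K : Subgroup (Perm α)} (h : Pro H K) (hK : K ≤ H) {g : Perm α} (hg : g ∈ H) :
    ∃ x ∈ sw H (fp K), ∀ a ∈ fp K, g a ∈ fp K → x a = g a := by
  obtain ⟨w, hw, h1, e⟩ := h.ex_fix hK hg
  refine ⟨w⁻¹ * g, ⟨H.mul_mem (H.inv_mem hw) hg, ?_⟩, fun a ha hb => ?_⟩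
  · show (w⁻¹ * g) • fp K = fp K
    rw [mul_smul, ← e, inv_smul_smul]
  · rw [Perm.mul_apply, Perm.inv_eq_iff_eq, h1 _ hb (app_mem_sm.2 ha)]

/-- `F` is the only block stabilised by `K`. -/
theorem Pro.fixb {H K : Subgroup (Perm α)} (h : Pro H K) {g : Perm α} (hg : g ∈ H)
    (hk : ∀ k ∈ K, k • g • fp K = g • fp K) : g • fp K = fp K := by
  obtain ⟨w, hw, e⟩ := h.ex hg
  have : w • g • fp K = g • fp K := by
    refine hw (stabilizer (Perm α) (g • fp K)) hk fun k hk => sm_eq_iff.2 fun a ha => ?_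
    rw [← fp_cj] at ha ⊢
    rwa [mem_fp.1 ha k hk]
  rw [← e] at this
  rw [← e]
  exact smul_left_cancel w this

theorem sm_fp {K : Subgroup (Perm α)} {k : Perm α} (hk : k ∈ K) : k • fp K = fp K :=
  sm_eq_iff.2 fun a ha => by rwa [mem_fp.1 ha k hk]

/-- The complement of `F` is not a block. -/
theorem Pro.nos {H K : Subgroup (Perm α)} (h : Pro H K) (hF : (fp K).Nonempty) {g : Perm α}
    (hg : g ∈ H) : g • fp K ≠ (fp K)ᶜ := by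
  intro e
  have := h.fixb hg fun k hk => by
    rw [e]
    exact sm_eq_iff.2 fun a ha => by
      rw [Finset.mem_compl] at ha ⊢
      exact fun hb => ha ((sm_eq_iff'.1 (sm_fp hk) a).1 hb)
  obtain ⟨a, ha⟩ := hF
  rw [e] at this
  have h2 : a ∈ (fp K)ᶜ := by rw [this]; exact ha
  exact Finset.mem_compl.1 h2 ha

/-- `H` is transitive on `Δ`, and the pronormal subgroup `K` moves a point of `Δ`. -/
structure Sit (H K : Subgroup (Perm α)) (Δ : Finset α) : Prop where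
  le : K ≤ H
  pro : Pro H K
  inv : ∀ g ∈ H, ∀ a ∈ Δ, g a ∈ Δ
  tr : ∀ a ∈ Δ, ∀ b ∈ Δ, ∃ g ∈ H, g a = b
  mv : ∃ a ∈ Δ, a ∉ fp K

def T2 (H : Subgroup (Perm α)) (Δ : Finset α) : Prop := ∀ a ∈ Δ, ∀ b ∈ Δ, ∀ a' ∈ Δ, ∀ b' ∈ Δ,
  a ≠ b → a' ≠ b' → ∃ g ∈ H, g a = a' ∧ g b = b'

def T3 (H : Subgroup (Perm α)) (Δ : Finset α) : Prop := ∀ a ∈ Δ, ∀ b ∈ Δ, ∀ c ∈ Δ,
  ∀ a' ∈ Δ, ∀ b' ∈ Δ, ∀ c' ∈ Δ, [a, b, c].Nodup → [a', b', c'].Nodup →
  ∃ g ∈ H, g a = a' ∧ g b = b' ∧ g c = c'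

def T4 (H : Subgroup (Perm α)) (Δ : Finset α) : Prop := ∀ a ∈ Δ, ∀ b ∈ Δ, ∀ c ∈ Δ, ∀ d ∈ Δ,
  ∀ a' ∈ Δ, ∀ b' ∈ Δ, ∀ c' ∈ Δ, ∀ d' ∈ Δ, [a, b, c, d].Nodup → [a', b', c', d'].Nodup →
  ∃ g ∈ H, g a = a' ∧ g b = b' ∧ g c = c' ∧ g d = d'

theorem ex_out (Δ : Finset α) (l : List α) (h : l.length < Δ.card) : ∃ c ∈ Δ, c ∉ l := by
  by_contra hc
  push Not at hc
  have : Δ ⊆ l.toFinset := fun c hc' => List.mem_toFinset.2 (hc c hc')
  exact absurd ((Finset.card_le_card this).trans (List.toFinset_card_le l)) (by omega)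

theorem T3.t2 {H : Subgroup (Perm α)} {Δ : Finset α} (h : T3 H Δ) (h3 : 3 ≤ Δ.card) : T2 H Δ := by
  intro a ha b hb a' ha' b' hb' e e'
  obtain ⟨c, hc, h1⟩ := ex_out Δ [a, b] h3
  obtain ⟨c', hc', h2⟩ := ex_out Δ [a', b'] h3
  obtain ⟨g, hg, h4, h5, -⟩ := h a ha b hb c hc a' ha' b' hb' c' hc' (by simp at h1 ⊢; grind)
    (by simp at h2 ⊢; grind)
  exact ⟨g, hg, h4, h5⟩

theorem T4.t3 {H : Subgroup (Perm α)} {Δ : Finset α} (h : T4 H Δ) (h4 : 4 ≤ Δ.card) : T3 H Δ := by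
  intro a ha b hb c hc a' ha' b' hb' c' hc' e e'
  obtain ⟨d, hd, h1⟩ := ex_out Δ [a, b, c] h4
  obtain ⟨d', hd', h2⟩ := ex_out Δ [a', b', c'] h4
  obtain ⟨g, hg, h4, h5, h6, -⟩ := h a ha b hb c hc d hd a' ha' b' hb' c' hc' d' hd'
    (by simp at h1 e ⊢; grind) (by simp at h2 e' ⊢; grind)
  exact ⟨g, hg, h4, h5, h6⟩

theorem T2.tr {H : Subgroup (Perm α)} {Δ : Finset α} (h : T2 H Δ) :
    ∀ a ∈ Δ, ∀ b ∈ Δ, ∃ g ∈ H, g a = b := by
  intro a ha b hb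
  by_cases e : a = b
  · exact ⟨1, H.one_mem, e⟩
  · obtain ⟨g, hg, h1, -⟩ := h a ha b hb b hb a ha e (Ne.symm e)
    exact ⟨g, hg, h1⟩

theorem orb_inv {L : Subgroup (Perm α)} {u : α} : ∀ g ∈ L, ∀ a ∈ orb L u, g a ∈ orb L u := by
  intro g hg a ha
  obtain ⟨x, hx, rfl⟩ := mem_orb.1 ha
  exact mem_orb.2 ⟨g * x, L.mul_mem hg hx, rfl⟩

theorem orb_tr {L : Subgroup (Perm α)} {u : α} :
    ∀ a ∈ orb L u, ∀ b ∈ orb L u, ∃ g ∈ L, g a = b := by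
  intro a ha b hb
  obtain ⟨x, hx, rfl⟩ := mem_orb.1 ha
  obtain ⟨y, hy, rfl⟩ := mem_orb.1 hb
  exact ⟨y * x⁻¹, L.mul_mem hy (L.inv_mem hx), by simp⟩

theorem self_mem_orb {L : Subgroup (Perm α)} {u : α} : u ∈ orb L u := mem_orb.2 ⟨1, L.one_mem, rfl⟩

theorem orb_eq {L : Subgroup (Perm α)} {u v : α} (h : v ∈ orb L u) : orb L v = orb L u := by
  ext a
  refine ⟨fun ha => ?_, fun ha => mem_orb.2 (orb_tr v h a ha)⟩
  obtain ⟨x, hx, rfl⟩ := mem_orb.1 ha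
  exact orb_inv x hx v h

/-- Removing an orbit from an invariant set leaves an invariant set. -/
theorem sdiff_orb_inv {L : Subgroup (Perm α)} {Θ : Finset α} (h : ∀ g ∈ L, ∀ a ∈ Θ, g a ∈ Θ)
    (u : α) : ∀ g ∈ L, ∀ a ∈ Θ \ orb L u, g a ∈ Θ \ orb L u := by
  intro g hg a ha
  rw [Finset.mem_sdiff] at ha ⊢
  refine ⟨h g hg a ha.1, fun hb => ha.2 ?_⟩
  simpa using orb_inv g⁻¹ (L.inv_mem hg) _ hb

theorem orb_sub {L : Subgroup (Perm α)} {Θ : Finset α} (h : ∀ g ∈ L, ∀ a ∈ Θ, g a ∈ Θ) {u : α}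
    (hu : u ∈ Θ) : orb L u ⊆ Θ := by
  intro a ha
  obtain ⟨x, hx, rfl⟩ := mem_orb.1 ha
  exact h x hx u hu
end

/-- A statement about all pairs of permutation groups; `n` is the degree, `F` the fixed set. -/
def All2 (P : ∀ (α : Type) [Fintype α] [DecidableEq α], ℕ → Subgroup (Perm α) →
    Subgroup (Perm α) → Finset α → Prop) : Prop :=
  ∀ (α : Type) [Fintype α] [DecidableEq α] (G K : Subgroup (Perm α)),
    P α (Fintype.card α) G K (fp K)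

/-- The theorem for transitive constituents with fewer than `N` points. -/
def Loc (N : ℕ) : Prop := All2 fun α _ _ _ H K F => ∀ Δ : Finset α, Sit H K Δ → Δ.card < N →
  2 * (Δ ∩ F).card + 1 ≤ Δ.card

/-- If `K` fixes a whole suborbit, the bound improves. -/
def Quo (N : ℕ) : Prop := All2 fun α _ _ _ H K F => ∀ Δ : Finset α, Sit H K Δ → Δ.card ≤ N →
  ∀ a ∈ Δ, a ∈ F → ∀ b ∈ Δ, b ≠ a → orb (fx H {a}) b ⊆ F → 2 * (Δ ∩ F).card + 2 ≤ Δ.card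

section
variable {α : Type} [Fintype α] [DecidableEq α]

theorem Loc.orb {N : ℕ} (h : Loc N) {L K : Subgroup (Perm α)} (hK : K ≤ L) (hp : Pro L K) {u : α}
    (hN : (orb L u).card < N) (hu : ¬ orb L u ⊆ fp K) :
    2 * (orb L u ∩ fp K).card + 1 ≤ (orb L u).card :=
  h α L K _ ⟨hK, hp, orb_inv, orb_tr, Finset.not_subset.1 hu⟩ hN

theorem card_split {A Θ : Finset α} (h : A ⊆ Θ) (F : Finset α) :
    Θ.card = A.card + (Θ \ A).card ∧ (Θ ∩ F).card = (A ∩ F).card + ((Θ \ A) ∩ F).card := by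
  constructor
  · rw [add_comm, Finset.card_sdiff_add_card_eq_card h]
  · rw [← Finset.card_union_of_disjoint, ← Finset.union_inter_distrib_right,
      Finset.union_sdiff_of_subset h]
    exact Finset.disjoint_sdiff.mono Finset.inter_subset_left Finset.inter_subset_left

/-- Sum over the orbits of an invariant set. -/
theorem Loc.sum {N : ℕ} (h : Loc N) {L K : Subgroup (Perm α)} (hK : K ≤ L) (hp : Pro L K)
    (Θ : Finset α) (hi : ∀ g ∈ L, ∀ a ∈ Θ, g a ∈ Θ) (hN : Θ.card < N)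
    (hm : ∀ u ∈ Θ, ¬ H2.Ln.orb L u ⊆ fp K) : Θ = ∅ ∨ 2 * (Θ ∩ fp K).card + 1 ≤ Θ.card := by
  induction Θ using Finset.strongInduction with | H Θ ih =>
  rcases Θ.eq_empty_or_nonempty with e | ⟨u, hu⟩
  · exact Or.inl e
  right
  have hs := orb_sub hi hu
  have h1 := h.orb hK hp ((Finset.card_le_card hs).trans_lt hN) (hm u hu)
  obtain ⟨e1, e2⟩ := card_split hs (fp K)
  rcases ih (Θ \ H2.Ln.orb L u) (Finset.sdiff_ssubset hs ⟨u, self_mem_orb⟩) (sdiff_orb_inv hi u)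
    (by omega) (fun v hv => hm v (Finset.mem_sdiff.1 hv).1) with e | e
  · rw [e] at e1 e2
    simp at e1 e2
    omega
  · omega

/-- A minimal counterexample. -/
structure Cx (G K : Subgroup (Perm α)) : Prop where
  le : K ≤ G
  pro : Pro G K
  ne : K ≠ ⊥
  half : Fintype.card α = 2 * (fp K).card
  t3 : T3 G Finset.univ
  full : fx G (fp K) ≤ K
  loc : Loc (Fintype.card α)
  four : 4 ≤ (fp K).card

/-- Exactly 3-transitive, two orbits `O₁`, `O₂` of the stabiliser of `a, a', b`. -/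
structure Two (G K : Subgroup (Perm α)) (a a' b : α) (O₁ O₂ : Finset α) : Prop extends Cx G K where
  nd : [a, a', b].Nodup
  ha : a ∈ fp K
  ha' : a' ∈ fp K
  hb : b ∈ fp K
  o1 : ∃ u, O₁ = orb (fx G {a, a', b}) u
  o2 : ∃ u, O₂ = orb (fx G {a, a', b}) u
  dj : Disjoint O₁ O₂
  cov : ∀ c, c ∈ O₁ ∨ c ∈ O₂ ↔ c ∉ [a, a', b]
  d1 : O₁.card = 2 * (O₁ ∩ fp K).card + 1
  d2 : O₂.card = 2 * (O₂ ∩ fp K).card + 2
  mv : ¬ O₁ ⊆ fp K
  t2 : T2 (fx G {a, a', b}) O₁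

/-- An invariant system of quadruples without three members in a 5-set. -/
structure Quad (G : Subgroup (Perm α)) (a a' b : α) (O₁ : Finset α) (Q : Finset α → Prop) :
    Prop where
  inv : ∀ g ∈ G, ∀ T, Q (g • T) ↔ Q T
  mem : ∀ c ∉ [a, a', b], Q {a, a', b, c} ↔ c ∈ O₁
  tri : ∀ x y z c e, [x, y, z, c, e].Nodup → Q {x, y, z, c} → Q {x, y, z, e} → ¬ Q {x, y, c, e}

/-- The 4-transitive case; `R` is `K` or its Frobenius kernel. -/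
structure C5 (G K R : Subgroup (Perm α)) : Prop extends Cx G K where
  t4 : T4 (sw G (fp K)) (fp K)
  six : 6 ≤ (fp K).card
  ti : ∀ x ∈ G, ∀ B ∈ bl G K, ∀ B' ∈ bl G K, (∀ a ∈ B, x a = a) → (∀ a ∈ B', x a = a) →
    x = 1 ∨ B = B'
  fai : ∀ x ∈ G, (∀ s ∉ fp K, x s = s) → x = 1
  one : ∀ x ∈ K, ∀ s ∉ fp K, ∀ s' ∉ fp K, x s = s → x s' = s' → x = 1 ∨ s = s'
  memR : ∀ x, x ∈ R ↔ x ∈ K ∧ (x = 1 ∨ ∀ s ∉ fp K, x s ≠ s)
  neR : R ≠ ⊥
  fro : R = K ∨ ∃ s₀ ∉ fp K, orb R s₀ = orb K s₀ ∧ ∀ x ∈ K, x ∉ R → ∃ s ∈ orb R s₀, x s = s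

/-- Elements of `N` that centralise `R` and keep its orbits lie in `K`. -/
def Ez (G K R : Subgroup (Perm α)) : Prop := ∀ y ∈ sw G (fp K), (∀ k ∈ R, y * k = k * y) →
  (∀ s ∉ fp K, y s ∈ orb R s) → y ∈ K

/-- The involutions of a quadruple system in which all blocks are even. -/
def Sig (G K : Subgroup (Perm α)) : Prop := ∀ u v : α, u ≠ v → ∃ σ : α → α, ∀ x ∉ [u, v],
  σ x ∉ [u, v] ∧ σ (σ x) = x ∧ ∀ B ∈ bl G K, ((u ∈ B ↔ v ∈ B) ↔ (x ∈ B ↔ σ x ∈ B))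
end

/-! ### Reduction to the 4-transitive case -/

def Orb : Prop := ∀ N, IH N → Loc N
def QuoJ : Prop := ∀ N, IH N → Quo N

def Clq : Prop := All2 fun α _ _ _ H K F => ∀ (N : ℕ) (Δ : Finset α), Loc N → Sit H K Δ →
  Δ.card ≤ N → ∀ a ∈ Δ, a ∈ F → ∀ u ∈ Δ, u ≠ a → ∀ O, O = orb (fx H {a}) u → ¬ O ⊆ F →
  O.card = 2 * (O ∩ F).card + 1 → (∀ v ∈ O, ∀ v' ∈ O, v ≠ v' → ∃ g ∈ H, g a = v ∧ g u = v') →
  insert a O = Δ

def All1 : Prop := All2 fun α _ _ _ H K F => ∀ (N : ℕ) (Δ : Finset α), Loc N → Sit H K Δ →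
  Δ.card ≤ N → ∀ a ∈ Δ, a ∈ F → (∀ u ∈ Δ, u ≠ a → ∀ O, O = orb (fx H {a}) u →
    ¬ O ⊆ F ∧ O.card = 2 * (O ∩ F).card + 1 ∧ T2 (fx H {a}) O) →
  ∀ u ∈ Δ, u ≠ a → insert a (orb (fx H {a}) u) = Δ

def Tw : Prop := All2 fun α _ _ _ H K F => ∀ (N : ℕ) (Δ : Finset α), Loc N → Quo N → Sit H K Δ →
  Δ.card < N → Δ.card = 2 * (Δ ∩ F).card + 1 → T2 H Δ

def Thr : Prop := All2 fun _ _ _ n G K F => Loc n → Quo n → Sit G K Finset.univ →
  n ≤ 2 * F.card → n = 2 * F.card ∧ T3 G Finset.univ ∧ 4 ≤ F.card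

def Half : Prop := All2 fun α _ _ n G K F => (∀ a b : α, ∃ g ∈ G, g a = b) → n = 2 * F.card →
  ∀ a : α, 2 * ((bl G K).filter (a ∈ ·)).card = (bl G K).card

def Sq1 : Prop := All2 fun α _ _ _ G K F => Cx G K → ∀ a ∈ F, ∀ a' ∈ F, ∀ b ∈ F, ∀ c : α,
  [a, a', b, c].Nodup → orb (fx G {a, a', b}) c ⊆ F → Sig G K

def Sq2 : Prop := All2 fun _ _ _ _ G K _ => Cx G K → Sig G K → False

def PA : Prop := All2 fun α _ _ _ G K _ => ∀ (a a' b : α) (O₁ O₂ : Finset α),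
  Two G K a a' b O₁ O₂ → ∃ Q, Quad G a a' b O₁ Q

def PB : Prop := All2 fun α _ _ _ G K _ => ∀ (a a' b : α) (O₁ O₂ : Finset α) (Q : Finset α → Prop),
  Two G K a a' b O₁ O₂ → Quad G a a' b O₁ Q → 3 * O₁.card ≤ O₂.card + 3

def PC : Prop := All2 fun α _ _ _ G K _ => ∀ (a a' b : α) (O₁ O₂ : Finset α) (Q : Finset α → Prop),
  Two G K a a' b O₁ O₂ → Quad G a a' b O₁ Q → 3 * O₁.card ≤ O₂.card + 3 → False

def Four : Prop := All2 fun _ _ _ n G K _ => Quo n → Cx G K → T4 G Finset.univ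

/-! ### The 4-transitive case -/

def Boc : Prop := All fun α _ _ n M => IsMultiplyPretransitive M α 4 → ∀ x m, Mn M x →
  m = x.support.card → 4 ≤ m → m < n →
  (m - 3) * (n - 2) * (n - 3) + 2 * (m - 2) * (n - 3) + 2 * (m - 2) ^ 3 ≤
    3 * (m - 1) * (m - 2) * (n - 3)

def Deg : Prop := All fun α _ _ n M => 4 ≤ n → T4 M Finset.univ → alternatingGroup α ≤ M ∨
  ∀ x ∈ M, x ≠ 1 → 6 ≤ x.support.card ∧ n ≤ 2 * x.support.card + 3

def DegN : Prop := All fun α _ _ _ M => ∀ U : Finset α, 4 ≤ U.card → (∀ x ∈ M, x • U = U) →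
  T4 M U → U.card.factorial ≤ 2 * (fx M U).relIndex M ∨
  ∀ x ∈ M, x ∉ fx M U → 6 ≤ (U ∩ x.support).card ∧ U.card ≤ 2 * (U ∩ x.support).card + 3

def NoAlt : Prop := All2 fun α _ _ _ G K _ => Cx G K → ¬ alternatingGroup α ≤ G

def Fis : Prop := All fun α _ _ _ M => ∀ (U : Finset α) (V : Subgroup (Perm α)),
  (∀ x ∈ M, x • U = U) → T2 M U → V ≤ M → V.relIndex M < U.card →
  ∀ a ∈ U, ∀ b ∈ U, ∃ g ∈ V, g a = b

def Pt : Prop := All2 fun _ _ _ _ G K F => Cx G K → ∀ s ∉ F, ∀ a ∈ F, ∀ b ∈ F,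
  ∃ g ∈ sw G F, g s = s ∧ g a = b

def Adj : Prop := All2 fun _ _ _ _ G K F => Cx G K → ∀ B ∈ bl G K, (F ∩ B).card + 1 ≠ F.card

def NS : Prop := All fun α _ _ _ M => ∀ (U : Finset α) (V : Subgroup (Perm α)), 5 ≤ U.card →
  (∀ x ∈ M, x • U = U) → T4 M U → V ≤ M → (∀ g ∈ M, ∀ x ∈ V, g * x * g⁻¹ ∈ V) →
  (∃ x ∈ V, ∃ a ∈ U, x a ≠ a) → T2 V U

def Fai : Prop := All2 fun _ _ _ _ G _ F => 6 ≤ F.card → T4 (sw G F) F →
  (∀ x ∈ G, x ≠ 1 → F.card ≤ x.support.card + 1) → ∀ x ∈ G, (∀ s ∉ F, x s = s) → x = 1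

def Con : Prop := All2 fun _ _ _ _ G K F => Cx G K → ∀ (p : ℕ) (P : Subgroup _), p.Prime →
  IsPGroup p P → P ≤ K → ∃ B ∈ bl G K, B ≠ F ∧ ∀ x ∈ P, x • B = B

def Fro : Prop := All fun _ _ _ _ K => K ≠ ⊥ →
  (∀ x ∈ K, ∀ s ∉ fp K, ∀ s' ∉ fp K, x s = s → x s' = s' → x = 1 ∨ s = s') →
  ∃ R : Subgroup _, (∀ x, x ∈ R ↔ x ∈ K ∧ (x = 1 ∨ ∀ s ∉ fp K, x s ≠ s)) ∧ R ≠ ⊥ ∧
    (R = K ∨ ∃ s₀ ∉ fp K, orb R s₀ = orb K s₀ ∧ ∀ x ∈ K, x ∉ R → ∃ s ∈ orb R s₀, x s = s)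

def EzJ : Prop := All2 fun _ _ _ _ G K _ => ∀ R, C5 G K R → Ez G K R

def Alt : Prop := All2 fun _ _ _ _ G K F => ∀ R, C5 G K R → Ez G K R →
  2 * K.relIndex (sw G F) < F.card.factorial

def Ix2 : Prop := ∀ (Γ : Type) [Group Γ] [Finite Γ] (R : Subgroup Γ) (y : Γ) (p : ℕ), Odd p →
  y ^ p = 1 → (∀ k ∈ R, y * k * y⁻¹ ∈ R) → (Subgroup.centralizer {y}).relIndex R = 2 →
  4 ≤ Nat.card R ∧ ∃ z ∈ R, ∀ k ∈ R, y * z * k = k * (y * z)

/-- An element of odd order that normalises `K` and has many fixed points outside `F`. -/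
def Elt : Prop := All2 fun _ _ _ _ G K F => ∀ R, C5 G K R →
  (∀ y ∈ sw G F, y ∉ K → 6 ≤ (F ∩ y.support).card ∧ F.card ≤ 2 * (F ∩ y.support).card + 3) →
  ∃ y ∈ sw G F, ∃ p, Odd p ∧ y ^ p = 1 ∧ y ∉ K ∧ (∃ k ∈ K, y * k ≠ k * y) ∧
    F.card < 3 * (Fᶜ \ y.support).card ∧ F.card ≤ 2 * (Fᶜ \ y.support).card + 3

def Fin1 : Prop := All2 fun _ _ _ _ G K F => ∀ R, C5 G K R → Ez G K R → ∀ y ∈ sw G F, ∀ p, Odd p →
  y ^ p = 1 → y ∉ K → F.card < 3 * (Fᶜ \ y.support).card →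
  F.card ≤ 2 * (Fᶜ \ y.support).card + 3 → ∀ k ∈ R, y * k = k * y

def Fin2 : Prop := All2 fun _ _ _ _ G K F => ∀ R, C5 G K R → Ez G K R → ∀ y ∈ sw G F,
  y ∉ K → F.card < 3 * (Fᶜ \ y.support).card → F.card ≤ 2 * (Fᶜ \ y.support).card + 3 →
  (∀ k ∈ R, y * k = k * y) → ∀ k ∈ K, y * k = k * y

end H42.PN
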