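import Cfsg.Prelude.Def_Solvable
import Cfsg.Agent.H9.MaxClass

/-! Specification of the tower: an involution inverting few elements of odd order. -/

set_option autoImplicit false

namespace H42.IV

open Subgroup Nat

universe u

/-- The elements of odd order inverted by `a`. -/
def J {H : Type*} [Group H] (a : H) : Set H := {g | Odd (orderOf g) ∧ a * g * a⁻¹ = g⁻¹}

/-- `H` is generated by `a` (with `a ^ 2 = 1`) and the odd order elements inverted by `a`. -/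
structure St (H : Type*) [Group H] (a : H) : Prop where
  sq : a * a = 1
  gen : closure (insert a (J a)) = ⊤

/-- No non-trivial normal `2`-subgroup. -/
def O2 (H : Type*) [Group H] : Prop := ∀ N : Subgroup H, N.Normal → IsPGroup 2 N → N = ⊥

/-- The centralizer of `b` embeds in the symmetric group of degree `N`. -/
def Emb {P : Type*} [Group P] (b : P) (N : ℕ) : Prop :=
  ∃ f : centralizer ({b} : Set P) →* Equiv.Perm (Fin N), Function.Injective f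

/-- The norms `y * y ^ b`. -/
def nrm {P : Type*} [Group P] (A : Subgroup P) (b : P) : Set P :=
  {v | ∃ y ∈ A, y * (b * y * b⁻¹) = v}

/-- The elements of order at most two among the `2 ^ r`-th powers of norms. -/
def lay {P : Type*} [Group P] (A : Subgroup P) (b : P) (r : ℕ) : Set P :=
  {v | v ^ 2 = 1 ∧ ∃ y ∈ nrm A b, y ^ 2 ^ r = v}

/-- The elements of order at most two of `A` fixed by `b`. -/
def om {P : Type*} [Group P] (A : Subgroup P) (b : P) : Set P :=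
  {v | v ∈ A ∧ v ^ 2 = 1 ∧ b * v * b⁻¹ = v}

def Cond {P : Type*} [Group P] (A : Subgroup P) (b : P) (κ : ℕ) : Prop :=
  ∀ r s, (lay A b r).ncard = 2 ^ s → 1 ≤ s → r + 1 ≤ κ ∧ s ≤ 2 ^ (κ - (r + 1))

def Good (h t κ : ℕ) : Prop :=
  ∀ r s, 1 ≤ s → 2 ^ (r + 1) * s ≤ 2 * h → (r + 1) * s ≤ t → r + 1 ≤ κ ∧ s ≤ 2 ^ (κ - (r + 1))

def kap (h t : ℕ) : ℕ :=
  if t + 2 ≤ 2 * Nat.log 2 (2 * h) then min t (Nat.log 2 (2 * h)) else Nat.log 2 (2 * h) + 1

/-- The constraints on the parameters. -/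
structure Par (h a t e w : ℕ) : Prop where
  ta : t ≤ a
  ah : a < 2 * h
  et : e ≤ t
  ew : e = 0 ∨ 2 ^ e + 2 * w ≤ 2 * h + 2

/-- The final inequality. -/
def Ineq (h : ℕ) : Prop := ∀ a t e w, Par h a t e w →
  (2 * h + 1) ^ 2 * (2 ^ h * h !) ^ 4 * 2 ^ (a + (a - t) * (kap h t + 1) + e * w) < (2 * h + 1)! ^ 4

def cheb {R : Type*} [Ring R] (γ : R) : ℕ → R
  | 0 => γ
  | i + 1 => cheb γ i * cheb γ i - 2

def cp {R : Type*} [Ring R] (γ : R) : ℕ → R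
  | 0 => 1
  | i + 1 => cp γ i * cheb γ i

def JobQuo : Prop := ∀ (H : Type u) [Group H] [Finite H] (a : H) (N : Subgroup H) [N.Normal],
  St H a → St (H ⧸ N) (a : H ⧸ N) ∧ (J (a : H ⧸ N)).ncard ≤ (J a).ncard

def JobEmb : Prop := ∀ (H : Type u) [Group H] [Finite H] (a : H) (h : ℕ), St H a →
  (J a).ncard ≤ 2 * h + 1 →
  ∃ f : centralizer ({a} : Set H) →* Equiv.Perm (Fin (2 * h)), ∀ x, f x = 1 → (x : H) ∈ center H

def JobC : Prop := ∀ (H : Type u) [Group H] [Finite H] (a : H) (h : ℕ), St H a →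
  (J a).ncard ≤ 2 * h + 1 → center H = ⊥ → Nat.card (centralizer ({a} : Set H)) ≤ 2 ^ h * h !

/-- First half of the count. -/
def JobCntA : Prop := ∀ (H : Type u) [Group H] [Finite H] (a : H), a * a = 1 →
  {b | IsConj a b}.ncard ≤
    (J a).ncard * {b | IsConj a b ∧ ∃ Q : Sylow 2 H, a ∈ Q ∧ b ∈ Q}.ncard

def JobCnt : Prop := JobCntA.{u} → ∀ (H : Type u) [Group H] [Finite H] (a : H) (P : Sylow 2 H),
  a * a = 1 → (P : Subgroup H).index * Nat.card P ^ 2 ≤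
    (J a).ncard * Nat.card (centralizer ({a} : Set H)) ^ 2 * {b | b ∈ P ∧ IsConj a b}.ncard ^ 2

/-- Chermak and Delgado. -/
def JobCD : Prop := ∀ (H : Type u) [Group H] [Finite H],
  (∀ M : Subgroup H, M.Normal → IsMulCommutative M → M = ⊥) →
  ∀ X : Subgroup H, Nat.card X * Nat.card (centralizer (X : Set H)) ≤ Nat.card H

def JobReg : Prop := ∀ (H : Type u) [Group H] [Finite H] (M X : Subgroup H), M.Normal →
  IsMulCommutative M → Odd (Nat.card M) → IsMulCommutative X → IsPGroup 2 X →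
  Nat.card X ≤ Nat.card M * Nat.card (X ⊓ centralizer (M : Set H) : Subgroup H)

def CDZ : Prop := ∀ (H : Type u) [Group H] [Finite H] (X Y : Subgroup H), O2 H →
  IsMulCommutative X → IsPGroup 2 X → IsPGroup 2 Y → Y ≤ centralizer (X : Set H) →
  Nat.card X * Nat.card Y ≤ Nat.card H

def JobCDZ : Prop := JobCD.{u} → JobReg.{u} → CDZ.{u}

def JobP1 : Prop := ∀ (Y : Type u) [Group Y] [Finite Y] [IsMulCommutative Y] (Ω : Type) [Finite Ω]
  (f : Y →* Equiv.Perm Ω) (V : Subgroup Y) (r s : ℕ), IsPGroup 2 Y → (∀ v ∈ V, f v = 1 → v = 1) →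
  Nat.card V = 2 ^ s → (∀ v ∈ V, v ^ 2 = 1 ∧ ∃ y, y ^ 2 ^ r = v) → 2 ^ (r + 1) * s ≤ Nat.card Ω

def P2 : Prop := ∀ (Y : Type u) [Group Y] [Finite Y] [IsMulCommutative Y] (Ω : Type) [Finite Ω]
  (f : Y →* Equiv.Perm Ω) (V : Subgroup Y) (y : Y) (e w : ℕ), IsPGroup 2 Y →
  Function.Injective f → Nat.card V = 2 ^ w → (∀ v ∈ V, v ^ 2 = 1) → orderOf y = 2 ^ e → 1 ≤ e →
  2 ^ e + 2 * w ≤ Nat.card Ω + 2

def JobP2 : Prop := JobP1.{u} → P2.{u}

def JobCheb : Prop := ∀ (T : Type u) [AddCommGroup T] [Finite T] (γ : Module.End ℤ T) (κ N : ℕ),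
  (∀ v : T, 2 ^ N • v = 0) → IsNilpotent γ →
  (∀ r s, {v : T | 2 • v = 0 ∧ ∃ y : T, 2 ^ r • y = v}.ncard = 2 ^ s → 1 ≤ s →
    r + 1 ≤ κ ∧ s ≤ 2 ^ (κ - (r + 1))) → cp γ κ = 0

/-- The dihedral identity. -/
def JobDih : Prop := ∀ (R : Type u) [Ring R] (σ σ' : R) (κ : ℕ), σ * σ = 1 → σ' * σ' = 1 →
  (Commute (σ * σ' + σ' * σ) σ ∧ Commute (σ * σ' + σ' * σ) σ') ∧
  (∀ N M : ℕ, (σ * σ') ^ 2 ^ N = 1 → (2 : R) ^ M = 0 → IsNilpotent (σ * σ' + σ' * σ)) ∧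
  (cp (σ * σ' + σ' * σ) κ * (1 + σ) = 0 → cp (σ * σ' + σ' * σ) κ * (1 + σ') = 0 →
    (σ * σ') ^ 2 ^ (κ + 1) = 1)

def Exp : Prop := ∀ (P : Type u) [Group P] [Finite P] (A : Subgroup P) [A.Normal]
  [IsMulCommutative A] (a b : P) (κ : ℕ), IsPGroup 2 P → centralizer (A : Set P) ≤ A → a * a = 1 →
  b * b = 1 → Cond A a κ → Cond A b κ → (a * b) ^ 2 ^ (κ + 1) ∈ A

def JobExp : Prop := JobCheb.{u} → JobDih.{u} → Exp.{u}

def JobFib : Prop := ∀ (R : Type u) [Group R] [Finite R] (a : R) (S : Set R) (k : ℕ),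
  (∀ x ∈ S, a * x * a⁻¹ = x⁻¹ ∧ x ^ 2 ∈ S ∧ x ^ 2 ^ k = 1) →
  S.ncard ≤ Nat.card (centralizer ({a} : Set R)) ^ k

def JobDR : Prop := ∀ (P : Type u) [Group P] [Finite P] (A : Subgroup P) [A.Normal]
  [IsMulCommutative A] (a : P), a * a = 1 →
  Nat.card (centralizer ({(a : P ⧸ A)} : Set (P ⧸ A))) * (nrm A a).ncard ≤
    Nat.card (centralizer ({a} : Set P))

def JobXA : Prop := ∀ (P : Type u) [Group P] [Finite P] (A : Subgroup P) [A.Normal]
  [IsMulCommutative A] (a : P) (e w : ℕ) (X : Subgroup P), a * a = 1 → (om A a).ncard ≤ 2 ^ w →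
  (∀ v ∈ A, v ^ 2 ^ e ∈ X) → Nat.card A ≤ (nrm A a).ncard * 2 ^ (e * w) * Nat.card X

def JobXB : Prop := ∀ (P : Type u) [Group P] [Finite P] (A : Subgroup P) [A.Normal]
  [IsMulCommutative A] (a : P) (e : ℕ), (∀ v ∈ nrm A a, v ^ 2 ^ e = 1) →
  ∃ X : Subgroup P, X ≤ A ∧ (∀ v ∈ A, v ^ 2 ^ e ∈ X) ∧ Nat.card P ≤
    Nat.card (centralizer ({(a : P ⧸ A)} : Set (P ⧸ A))) * Nat.card (centralizer (X : Set P))

def CondP : Prop := ∀ (P : Type u) [Group P] [Finite P] (A : Subgroup P) [A.Normal]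
  [IsMulCommutative A] (b : P) (h t κ : ℕ), IsPGroup 2 P → b * b = 1 → Emb b (2 * h) →
  (nrm A b).ncard ≤ 2 ^ t → Good h t κ → Cond A b κ

def JobCond : Prop := JobP1.{u} → CondP.{u}

def ParP : Prop := ∀ (P : Type u) [Group P] [Finite P] (A : Subgroup P) [A.Normal]
  [IsMulCommutative A] (b : P) (h : ℕ), IsPGroup 2 P → b * b = 1 → Emb b (2 * h) → 1 ≤ h →
  ∃ a t e w, Par h a t e w ∧ Nat.card (centralizer ({b} : Set P)) = 2 ^ a ∧
    (nrm A b).ncard = 2 ^ t ∧ (∀ v ∈ nrm A b, v ^ 2 ^ e = 1) ∧ (om A b).ncard ≤ 2 ^ w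

def JobPar : Prop := P2.{u} → ParP.{u}

/-- The `2`-group theorem. -/
def PP : Prop := ∀ (P : Type u) [Group P] [Finite P] (D : Set P) (h : ℕ), IsPGroup 2 P → 1 ≤ h →
  D.Nonempty → (∀ b ∈ D, b * b = 1 ∧ Emb b (2 * h) ∧ ∀ g, g * b * g⁻¹ ∈ D) →
  ∃ (X Y : Subgroup P) (a t e w : ℕ), IsMulCommutative X ∧ Y ≤ centralizer (X : Set P) ∧
    Par h a t e w ∧ D.ncard * Nat.card P ≤
      2 ^ (a + (a - t) * (kap h t + 1) + e * w) * (Nat.card X * Nat.card Y)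

def JobGood : Prop := ∀ h t, 1 ≤ h → Good h t (kap h t)

def JobP : Prop := JobGood → Exp.{u} → JobFib.{u} → JobDR.{u} → JobXA.{u} → JobXB.{u} →
  CondP.{u} → ParP.{u} → PP.{u}

def JobNumS : Prop := ∀ h, 1 ≤ h → h ≤ 1200 → Ineq h

def JobNumL : Prop := ∀ h, 1200 < h → Ineq h

def Core : Prop := ∀ (H : Type u) [Group H] [Finite H] (a : H) (h : ℕ), 1 ≤ h → St H a →
  (J a).ncard ≤ 2 * h + 1 → O2 H → Nat.card (centralizer ({a} : Set H)) ≤ 2 ^ h * h ! →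
  Nat.card H < (2 * h + 1)! ^ 4

def JobCore : Prop := JobEmb.{u} → JobCntA.{u} → JobCnt.{u} → CDZ.{u} → PP.{u} →
  (∀ h, 1 ≤ h → Ineq h) → Core.{u}

def Red : Prop := ∀ (H : Type u) [Group H] [Finite H] (a : H) (h : ℕ), 1 ≤ h → St H a →
  (J a).ncard ≤ 2 * h + 1 → (Cfsg.fittingSubgroup H).index < (2 * h + 1)! ^ 4

def JobRed : Prop := JobQuo.{u} → JobC.{u} → Core.{u} → Red.{u}

def JobTop : Prop := Red.{u} → ∀ (G : Type u) [Group G] [Finite G] [Nontrivial G] (α : MulAut G),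
  orderOf α = 2 → closure {g : G | Odd (orderOf g) ∧ α g = g⁻¹} = ⊤ →
  (Cfsg.fittingSubgroup G).index < (Nat.card {g : G // Odd (orderOf g) ∧ α g = g⁻¹})! ^ 4

end H42.IV
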