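import Cfsg.Agent.H42.SimXBDef

/-! Tower SIM, chapter XA part two: slots. Proofs: `blueprints/SIMXB.md`. -/

set_option autoImplicit false

namespace H42.SX

open Subgroup Cfsg H98 Matrix H0.Sim

section defs

variable {n : ℕ} {F : Type} [Field F]

/-- `x ↦ x / (b x b⁻¹)`. -/
def dl {G : Type*} [Group G] (b x : G) : G := x * (b * x * b⁻¹)⁻¹

/-- The span of `E`. -/
abbrev sp (E : Subgroup (GL (Fin n) F)) : Submodule F (Mt n F) := Submodule.span F (mat E)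

/-- `A` is a commutative subring, not scalar, closed under the adjoint in the unitary case. -/
structure Rg (u : Bool) (q : ℕ) (A : Submodule F (Mt n F)) : Prop where
  one : (1 : Mt n F) ∈ A
  mul : ∀ a ∈ A, ∀ b ∈ A, a * b ∈ A
  comm : ∀ a ∈ A, ∀ b ∈ A, a * b = b * a
  ns : ∃ m ∈ A, ∀ c : F, m ≠ Matrix.scalar (Fin n) c
  adj : u = true → ∀ m ∈ A, (m.map (· ^ q))ᵀ ∈ A

/-- All that is used of the configuration. -/
structure Kt [Fintype F] (u : Bool) (q p : ℕ) (H Q : Subgroup (GL (Fin n) F))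
    (A : Submodule F (Mt n F)) (b : GL (Fin n) F) : Prop extends Rg u q A where
  par : Par n F u q
  pp : p.Prime
  QH : Q ≤ H
  HG : H ≤ Gam n F u q
  nQ : H ≤ normalizer (Q : Set (GL (Fin n) F))
  pQ : ∀ y ∈ Q, ∃ k : ℕ, y ^ p ^ k ∈ Zg n F u q
  st : ∀ h ∈ H, St h (A : Set (Mt n F))
  mp : ∀ s ∈ Sg n F u q, St s (A : Set (Mt n F)) → s ∈ H
  bQ : b ∈ Q
  bA : (b : Mt n F) ∉ A
  bp : b ^ p ∈ Zg n F u q
  del : ∀ t ∈ Sg n F u q, (t : Mt n F) ∈ A → dl b (dl b (dl b t)) = 1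
  nc : ∀ L ≤ H, IsQuasisimple L → ¬ Q ≤ normalizer (L : Set (GL (Fin n) F))

/-- The idempotents of the frame `c`. -/
noncomputable def fr (c : GL (Fin n) F) (i : Fin n) : Mt n F :=
  (c : Mt n F) * Matrix.single i i 1 * ((c⁻¹ : GL (Fin n) F) : Mt n F)

/-- The diagonal ring of the frame `c`. -/
noncomputable abbrev dr (c : GL (Fin n) F) : Submodule F (Mt n F) :=
  Submodule.span F (Set.range (fr c))

/-- `b` permutes the frame as `π`. -/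
def Pm (c b : GL (Fin n) F) (π : Equiv.Perm (Fin n)) : Prop :=
  ∀ i, (b : Mt n F) * fr c i * ((b⁻¹ : GL (Fin n) F) : Mt n F) = fr c (π i)

variable (F) in
/-- The admissible diagonal entries. -/
def mu (u : Bool) (q : ℕ) : Subgroup Fˣ := if u then (powMonoidHom (q + 1) : Fˣ →* Fˣ).ker else ⊤

/-- The centraliser of the image of `ι`. -/
abbrev cn {K : Type} [Field K] [Algebra F K] (ι : K →ₐ[F] Mt n F) : Subring (Mt n F) :=
  Subring.centralizer (Set.range ι)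

end defs

/-! ### The kit -/

def JobK1 : Prop := ∀ (n : ℕ) (F : Type) [Field F] [Fintype F] (u : Bool) (q p : ℕ)
  (Θ : Set (Jm n F)) (H Q E : Subgroup (GL (Fin n) F)), Cf0 u q p Θ H Q E →
  (∀ a ∈ E, ∀ b ∈ E, a * b = b * a) → Rg u q (sp E)

def JobK2 : Prop := ∀ (n : ℕ) (F : Type) [Field F] [Fintype F] (u : Bool) (q p : ℕ)
  (Θ : Set (Jm n F)) (H Q E : Subgroup (GL (Fin n) F)), Cf0 u q p Θ H Q E →
  Iv Θ (sp E : Set (Mt n F)) ∧ (∀ h ∈ H, St h (sp E : Set (Mt n F))) ∧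
    H ≤ normalizer (Q : Set (GL (Fin n) F)) ∧ H ≤ normalizer (E : Set (GL (Fin n) F))

def JobK3 : Prop := JobSQ → ∀ (n : ℕ) (F : Type) [Field F] [Fintype F] (u : Bool) (q p : ℕ)
  (Θ : Set (Jm n F)) (H Q E : Subgroup (GL (Fin n) F)), Cf0 u q p Θ H Q E → Rg u q (sp E) →
  ∃ s ∈ Sg n F u q, ¬ St s (sp E : Set (Mt n F))

def JobK4 : Prop := ∀ (n : ℕ) (F : Type) [Field F] [Fintype F] (u : Bool) (q p : ℕ)
  (Θ : Set (Jm n F)) (H Q E : Subgroup (GL (Fin n) F)) (g : GL (Fin n) F), Cf u q p Θ H Q E g →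
  H ≤ normalizer (E : Set (GL (Fin n) F)) →
  (∀ s ∈ Sg n F u q, St s (sp E : Set (Mt n F)) → s ∈ H) →
  ∃ b ∈ cj g E, (b : Mt n F) ∉ sp E ∧ b ^ p ∈ Zg n F u q

def JobK5 : Prop := ∀ (n : ℕ) (F : Type) [Field F] [Fintype F] (u : Bool) (q p : ℕ)
  (Θ : Set (Jm n F)) (H Q E : Subgroup (GL (Fin n) F)) (g : GL (Fin n) F), Cf u q p Θ H Q E g →
  (∀ a ∈ E, ∀ b ∈ E, a * b = b * a) → Rg u q (sp E) → (∀ h ∈ H, St h (sp E : Set (Mt n F))) →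
  (∀ s ∈ Sg n F u q, St s (sp E : Set (Mt n F)) → s ∈ H) → ∀ b ∈ cj g E,
  ∀ t ∈ Sg n F u q, (t : Mt n F) ∈ sp E → dl b (dl b (dl b t)) = 1

/-! ### The frame -/

def JobFr0 : Prop := ∀ (n : ℕ) (F : Type) [Field F] (f : Fin n → Mt n F), (∀ i, f i * f i = f i) →
  (∀ i j, i ≠ j → f i * f j = 0) → (∀ i, f i ≠ 0) → ∑ i, f i = 1 →
  ∃ c : GL (Fin n) F, ∀ i, f i = fr c i

def JobFrU : Prop := ∀ (n : ℕ) (F : Type) [Field F] [Fintype F] (q : ℕ) (c : GL (Fin n) F),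
  Fintype.card F = q ^ 2 → (∀ i, ((fr c i).map (· ^ q))ᵀ = fr c i) →
  ∃ c' ∈ GU n F q, ∀ i, fr c i = fr c' i

def JobRho : Prop := ∀ (n : ℕ) (F : Type) [Field F] (c : GL (Fin n) F)
  (H : Subgroup (GL (Fin n) F)), (∀ h ∈ H, St h (dr c : Set (Mt n F))) →
  ∃ ρ : H →* Equiv.Perm (Fin n), (∀ h : H, Pm c h (ρ h)) ∧
    ∀ h : H, ρ h = 1 ↔ ((h : GL (Fin n) F) : Mt n F) ∈ dr c

def JobSw : Prop := ∀ (n : ℕ) (F : Type) [Field F] [Fintype F] (u : Bool) (q : ℕ)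
  (c : GL (Fin n) F), Par n F u q → c ∈ Gam n F u q → ∀ i j : Fin n, i ≠ j →
  ∃ s ∈ Sg n F u q, Pm c s (Equiv.swap i j)

def JobN4 : Prop := ∀ (n p : ℕ) (N : Subgroup (Equiv.Perm (Fin n))), p.Prime → N.Normal →
  IsPGroup p N → N ≠ ⊥ → n ≤ 4

def JobDg : Prop := ∀ (n : ℕ) (F : Type) [Field F] [Fintype F] (u : Bool) (q : ℕ)
  (c : GL (Fin n) F), Par n F u q → c ∈ Gam n F u q →
  ∃ dg : (Fin n → mu F u q) →* GL (Fin n) F, Function.Injective dg ∧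
    (∀ t, (dg t : Mt n F) ∈ dr c ∧ (∏ i, t i = 1 → dg t ∈ Sg n F u q)) ∧
    (∀ x ∈ Gam n F u q, (x : Mt n F) ∈ dr c → x ∈ dg.range) ∧
    ∀ (b : GL (Fin n) F) (π : Equiv.Perm (Fin n)), Pm c b π →
      ∀ t, b * dg t * b⁻¹ = dg fun k => t (π⁻¹ k)

/-- The map `dl` on coordinates. -/
def dc {n : ℕ} {C : Type} [CommGroup C] (π : Equiv.Perm (Fin n)) (t : Fin n → C) : Fin n → C :=
  fun k => t k * (t (π⁻¹ k))⁻¹

def JobNF : Prop := ∀ (n p : ℕ) (C : Type) [CommGroup C] (π : Equiv.Perm (Fin n)), p.Prime →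
  n ≤ 4 → π ≠ 1 → π ^ p = 1 → (∀ t : Fin n → C, ∏ i, t i = 1 → dc π (dc π (dc π t)) = 1) →
  (n = 2 ∧ ∀ x : C, x ^ 8 = 1) ∨ (∀ x : C, x ^ 4 = 1) ∨ ∀ x : C, x ^ 3 = 1

def JobZ : Prop := ∀ (n : ℕ) (F : Type) [Field F] [Fintype F] (u : Bool) (q : ℕ), Par n F u q →
  Nat.card (Zg n F u q) = Nat.card (mu F u q) ∧
    Nat.card (mu F u q) = (if u then q + 1 else q - 1) ∧
    (∀ k, 0 < k → (∀ x : mu F u q, x ^ k = 1) → Nat.card (mu F u q) ≤ k) ∧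
    ∀ z ∈ Zg n F u q, ∃ c : F, (z : Mt n F) = Matrix.scalar (Fin n) c

def JobSF : Prop := ∀ (u : Bool) (n q r f m : ℕ), r.Prime → q = r ^ f →
  m = (if u then q + 1 else q - 1) → 2 ≤ n → n ≤ 4 → m ≤ 8 → (3 ≤ n → m ≤ 4) →
  m ^ n * n.factorial * (2 * f) ≤ 31104 * m

def C3 : Prop := ∀ (n : ℕ) (F : Type) [Field F] [Fintype F] (u : Bool) (q p : ℕ)
  (H Q : Subgroup (GL (Fin n) F)) (b c : GL (Fin n) F), c ∈ Gam n F u q →
  Kt u q p H Q (dr c) b → Small u q H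

def JobC3 : Prop := JobRho → JobSw → JobN4 → JobDg → JobNF → JobZ → JobSF → C3

/-! ### The field -/

def JobFK : Prop := ∀ (n : ℕ) (F : Type) [Field F] [Fintype F] (u : Bool) (q : ℕ)
  (A : Submodule F (Mt n F)), Rg u q A → (∀ m ∈ A, m ≠ 0 → IsUnit m) →
  ∃ (K : Type) (_ : Field K) (_ : Fintype K) (_ : Algebra F K) (ι : K →ₐ[F] Mt n F),
    Set.range ι = A ∧ Fintype.card F ^ 2 ≤ Fintype.card K

def JobCS : Prop := ∀ (n : ℕ) (F K : Type) [Field F] [Field K] [Algebra F K] (ι : K →ₐ[F] Mt n F),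
  1 ≤ n → IsSimpleRing (cn ι) ∧ ((∀ a ∈ cn ι, ∀ b ∈ cn ι, a * b = b * a) →
    Module.finrank F K = n ∧ ∀ a ∈ cn ι, a ∈ Set.range ι)

def M2 (u : Bool) : Prop := ∀ (n : ℕ) (F K : Type) [Field F] [Fintype F] [Field K] [Fintype K]
  [Algebra F K] (ι : K →ₐ[F] Mt n F) (q p : ℕ) (H Q : Subgroup (GL (Fin n) F))
  (A : Submodule F (Mt n F)) (b : GL (Fin n) F), Kt u q p H Q A b → Set.range ι = A →
  Fintype.card F ^ 2 ≤ Fintype.card K → IsSimpleRing (cn ι) →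
  ∀ x ∈ cn ι, ∀ y ∈ cn ι, x * y = y * x

/-- The derived group of `Gam ⊓ C` is not quasisimple. -/
def NQ : Prop := ∀ (n : ℕ) (F K : Type) [Field F] [Fintype F] [Field K] [Fintype K]
  [Algebra F K] (ι : K →ₐ[F] Mt n F) (u : Bool) (q p : ℕ) (H Q : Subgroup (GL (Fin n) F))
  (A : Submodule F (Mt n F)) (b : GL (Fin n) F), Kt u q p H Q A b → Set.range ι = A →
  ∀ (X : Type) [Group X] (ψ : X →* GL (Fin n) F), Function.Injective ψ →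
  (∀ x, x ∈ ψ.range ↔ x ∈ Gam n F u q ∧ (x : Mt n F) ∈ cn ι) → ¬ IsQuasisimple (commutator X)

def JobNQ : Prop := NQ

def JobM2L : Prop := JobStL → JobQSL → NQ → M2 false

def JobM2U : Prop := JobStU → JobQSU → NQ → M2 true

def JobGa : Prop := ∀ (n : ℕ) (F K : Type) [Field F] [Field K] [Finite K] [Algebra F K]
  (ι : K →ₐ[F] Mt n F) (b : GL (Fin n) F), 1 ≤ n → St b (Set.range ι) →
  ∃ γ : K ≃ₐ[F] K, ∀ k, ι (γ k) = (b : Mt n F) * ι k * ((b⁻¹ : GL (Fin n) F) : Mt n F)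

def JobFd : Prop := ∀ (F K : Type) [Field F] [Fintype F] [Field K] [Fintype K] [Algebra F K]
  (γ : K ≃ₐ[F] K) (p N : ℕ), p.Prime → γ ≠ 1 → γ ^ p = 1 →
  (∀ k : K, k ≠ 0 → ∀ x y : K, x = k ^ N / γ (k ^ N) → y = x / γ x → y = γ y) →
  ∃ d, Module.finrank F K = d * p ∧
    Fintype.card F ^ (d * p) - 1 ∣ N * (Fintype.card F ^ d - 1) ^ 3

def JobSr : Prop := ∀ (F K : Type) [Field F] [Fintype F] [Field K] [Fintype K] [Algebra F K]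
  (q : ℕ) (s : K →+* K), Fintype.card F = q ^ 2 → (∀ k, s (s k) = k) →
  (∀ x : F, s (algebraMap F K x) = algebraMap F K (x ^ q)) →
  Odd (Module.finrank F K) ∧ ∀ k, s k = k ^ q ^ Module.finrank F K

def JobNL : Prop := ∀ q d p : ℕ, p.Prime → 2 ≤ q → 1 ≤ d →
  q ^ (d * p) - 1 ∣ (q - 1) * (q ^ d - 1) ^ 3 → p = 2 ∧ d = 1 ∧ (q = 3 ∨ q = 7)

def JobNU : Prop := ∀ q d p : ℕ, p.Prime → 2 ≤ q → Odd (d * p) →
  (q ^ 2) ^ (d * p) - 1 ∣ (q ^ (d * p) - 1) * (q ^ 2 - 1) * ((q ^ 2) ^ d - 1) ^ 3 →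
  p = 3 ∧ d = 1 ∧ q = 2

/-- The Singer case: the divisibility. -/
def SD : Prop := ∀ (n : ℕ) (F K : Type) [Field F] [Fintype F] [Field K] [Fintype K]
  [Algebra F K] (ι : K →ₐ[F] Mt n F) (u : Bool) (q p N : ℕ) (H Q : Subgroup (GL (Fin n) F))
  (A : Submodule F (Mt n F)) (b : GL (Fin n) F), Kt u q p H Q A b → Set.range ι = A →
  Module.finrank F K = n → (∀ a ∈ cn ι, a ∈ Set.range ι) →
  (∀ k : K, k ≠ 0 → ∃ t ∈ Sg n F u q, (t : Mt n F) = ι (k ^ N)) →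
  ∃ d, n = d * p ∧ Fintype.card F ^ (d * p) - 1 ∣ N * (Fintype.card F ^ d - 1) ^ 3

def JobSD : Prop := JobGa → JobFd → JobZ → SD

def SG (u : Bool) : Prop := ∀ (n : ℕ) (F K : Type) [Field F] [Fintype F] [Field K] [Fintype K]
  [Algebra F K] (ι : K →ₐ[F] Mt n F) (q p : ℕ) (H Q : Subgroup (GL (Fin n) F))
  (A : Submodule F (Mt n F)) (b : GL (Fin n) F), Kt u q p H Q A b → Set.range ι = A →
  Module.finrank F K = n → (∀ a ∈ cn ι, a ∈ Set.range ι) → Small u q H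

def JobSL : Prop := SD → JobNL → SG false

def JobSU : Prop := SD → JobSr → JobNU → SG true

/-! ### Assembly -/

theorem kit (sq : JobSQ) (nc : JobNC) (k1 : JobK1) (k2 : JobK2) (k3 : JobK3) (k4 : JobK4)
    (k5 : JobK5) {n : ℕ} {F : Type} [Field F] [Fintype F] {u : Bool} {q p : ℕ} {Θ : Set (Jm n F)}
    {H Q E : Subgroup (GL (Fin n) F)} {g : GL (Fin n) F} (c : Cf u q p Θ H Q E g)
    (hab : ∀ a ∈ E, ∀ b ∈ E, a * b = b * a) : ∃ b, Kt u q p H Q (sp E) b := by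
  have r := k1 n F u q p Θ H Q E c.toCf0 hab
  obtain ⟨h1, h2, h3, h4⟩ := k2 n F u q p Θ H Q E c.toCf0
  have mp := c.mp _ h1 (k3 sq n F u q p Θ H Q E c.toCf0 r)
  obtain ⟨b, hb, h5, h6⟩ := k4 n F u q p Θ H Q E g c h4 mp
  exact ⟨b, r, c.par, c.pp, c.QH, c.HG, h3, c.pQ, h2, mp, c.BQ hb, h5, h6,
    k5 n F u q p Θ H Q E g c hab r h2 mp b hb, fun L hL => nc n F u q p Θ H Q E L c.toCf0 hL⟩

theorem a3 (sq : JobSQ) (nc : JobNC) (k1 : JobK1) (k2 : JobK2) (k3 : JobK3) (k4 : JobK4)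
    (k5 : JobK5) (f0 : JobFr0) (fu : JobFrU) (c3 : C3) : A3 := by
  intro n F _ _ u q p Θ H Q E g c _ hab f h1 h2 h3 h4 h5 h6
  obtain ⟨b, hb⟩ := kit sq nc k1 k2 k3 k4 k5 c hab
  obtain ⟨c0, hc⟩ := f0 n F f h1 h2 h3 h4
  obtain ⟨c1, hc1, hc2⟩ : ∃ c1 ∈ Gam n F u q, ∀ i, f i = fr c1 i := by
    cases u
    · exact ⟨c0, by simp [Gam], hc⟩
    · obtain ⟨c', h7, h8⟩ := fu n F q c0 (by simpa using c.par.card) fun i => hc i ▸ h5 rfl i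
      exact ⟨c', by simpa [Gam] using h7, fun i => (hc i).trans (h8 i)⟩
  obtain rfl : f = fr c1 := funext hc2
  exact c3 n F u q p H Q b c1 hc1 (by rwa [sp, h6] at hb)

theorem a5 (sq : JobSQ) (nc : JobNC) (k1 : JobK1) (k2 : JobK2) (k3 : JobK3) (k4 : JobK4)
    (k5 : JobK5) (fk : JobFK) (cs : JobCS) (m2 : ∀ u, M2 u) (sg : ∀ u, SG u) : A5 := by
  intro n F _ _ u q p Θ H Q E g c _ hab hf
  obtain ⟨b, hb⟩ := kit sq nc k1 k2 k3 k4 k5 c hab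
  obtain ⟨K, _, _, _, ι, h1, h2⟩ := fk n F u q _ hb.toRg hf
  obtain ⟨h3, h4⟩ := cs n F K ι (by have := c.par.two; omega)
  obtain ⟨h5, h6⟩ := h4 (m2 u n F K ι q p H Q _ b hb h1 h2 h3)
  exact sg u n F K ι q p H Q _ b hb h1 h5 h6

end H42.SX
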