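import Cfsg.Agent.H91.CL3Spec

/-! CL3 tower, slot M3. -/

set_option autoImplicit false
set_option linter.style.haveILetI false

namespace H42.CL

open H91.CL Subgroup

theorem jobM3 : H91.CL.JobM3 := by
  intro K V Γ _ _ _ _ _ _ _ _ _ _ sc G H ks S mx st hL γ hγ
  classical
  have hC : ∀ c ∈ G, Lin K V c → c * γ = γ * c := fun c hc hl => by
    have h1 : ∀ x ∈ Subring.closure (DistribMulAction.toAddMonoidEnd Γ V '' S),
        x * DistribMulAction.toAddMonoidEnd Γ V γ = DistribMulAction.toAddMonoidEnd Γ V γ * x := by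
      intro x hx
      refine (Subring.closure_le (t := Subring.centralizer
        {DistribMulAction.toAddMonoidEnd Γ V γ})).2 ?_ hx _ rfl |>.symm
      rintro _ ⟨s, hs, rfl⟩ _ rfl
      rw [← map_mul, ← map_mul, hγ s hs]
    have h2 := h1 _ (hL c hc hl)
    rw [← map_mul, ← map_mul] at h2
    exact eq_of_smul_eq_smul (α := V) fun v => DFunLike.congr_fun h2 v
  let Sig := {σ : K ≃+* K // ∃ g ∈ G, ∀ (a : K) (v : V), g • a • v = σ a • g • v}
  haveI : Finite (K ≃+* K) := Finite.of_injective (fun σ : K ≃+* K => (σ : K → K)) DFunLike.coe_injective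
  haveI : Fintype Sig := Fintype.ofFinite _
  choose g hg hs using fun s : Sig => s.2
  have uniq : ∀ (s : Sig) (t : Γ), t ∈ G → (∀ (a : K) (v : V), t • a • v = s.1 a • t • v) →
      t * γ * t⁻¹ = g s * γ * (g s)⁻¹ := fun s t ht hts => by
    have := hC ((g s)⁻¹ * t) (mul_mem (inv_mem (hg s)) ht) fun a v => by
      rw [mul_smul, hts, inv_smul_eq_iff, hs, mul_smul, smul_inv_smul]
    calc t * γ * t⁻¹ = g s * ((g s)⁻¹ * t * γ) * t⁻¹ := by group
      _ = _ := by rw [this]; group
  let y : K → V →+ V := fun l =>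
    { toFun := fun v => ∑ s : Sig, s.1 l • (g s * γ * (g s)⁻¹) • v
      map_zero' := by simp
      map_add' := fun u v => by simp only [smul_add, Finset.sum_add_distrib] }
  have yc : ∀ l, ∀ t ∈ G, ∀ v, t • y l v = y l (t • v) := fun l t ht v => by
    obtain ⟨τ, hτ⟩ := ks.semi t (ks.le ht)
    have hm : ∀ (s : Sig) (a : K) (v : V), (t * g s) • a • v = (s.1.trans τ) a • (t * g s) • v :=
      fun s a v => by rw [mul_smul, hs, hτ, mul_smul]; rfl
    let m : Sig → Sig := fun s => ⟨s.1.trans τ, t * g s, mul_mem ht (hg s), hm s⟩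
    have mi : Function.Injective m := fun s s' e => Subtype.ext (RingEquiv.ext fun a =>
      τ.injective (DFunLike.congr_fun (congrArg Subtype.val e) a))
    change t • ∑ s : Sig, s.1 l • (g s * γ * (g s)⁻¹) • v =
      ∑ s : Sig, s.1 l • (g s * γ * (g s)⁻¹) • t • v
    rw [Finset.smul_sum]
    refine Fintype.sum_bijective m (Finite.injective_iff_bijective.1 mi) _ _ fun s => ?_
    rw [hτ, ← uniq (m s) (t * g s) (mul_mem ht (hg s)) (hm s), ← mul_smul, ← mul_smul]
    congr 2
    group
  have ys : ∀ l, ∃ c : K, ∀ v, y l v = c • v := fun l => by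
    rcases mx.irr (y l).ker (fun t x hx => by
      rw [AddMonoidHom.mem_ker] at hx ⊢
      rw [Subgroup.smul_def, ← yc l t t.2, hx, smul_zero]) with e | e
    · obtain ⟨δ, hδ⟩ := mx.full (y l)
        (Finite.injective_iff_bijective.1 ((y l).ker_eq_bot_iff.1 e))
      have dc : ∀ t ∈ G, t * δ = δ * t := fun t ht => eq_of_smul_eq_smul (α := V) fun v => by
        rw [mul_smul, mul_smul, hδ, hδ, yc l t ht]
      have dG : δ ∈ G := by
        refine mx.max (G ⊔ zpowers δ) le_sup_left (solv_sup ks.sol (solv_of_comm ?_) ?_)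
          (mem_sup_right (mem_zpowers δ))
        · rintro _ ⟨a, rfl⟩ _ ⟨b, rfl⟩
          exact zpow_mul_comm δ a b
        · refine le_trans (fun t ht => ?_) (centralizer_le_normalizer _)
          rintro _ ⟨a, rfl⟩
          exact ((Commute.zpow_right (dc t ht) a).symm : _)
      obtain ⟨c, hc⟩ := st.cen δ dG fun s hs => (dc s (st.le hs)).symm
      exact ⟨c, fun v => by rw [← hδ, ← hc, ks.hsc]⟩
    · exact ⟨0, fun v => by rw [zero_smul]; exact (e ▸ AddSubgroup.mem_top v : v ∈ (y l).ker)⟩
  have mem : (fun v : V => γ • v) ∈ Submodule.span K {(id : V → V)} := by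
    by_contra hn
    obtain ⟨F, F1, F2⟩ := Submodule.exists_le_ker_of_notMem hn
    have li := (linearIndependent_monoidHom K K).comp (fun s : Sig => (s.1 : K →* K))
      fun s s' e => Subtype.ext (RingEquiv.ext fun a => DFunLike.congr_fun e a)
    let s1 : Sig := ⟨RingEquiv.refl K, 1, one_mem _, lin_one⟩
    have := Fintype.linearIndependent_iff.1 li (fun s => F fun v => (g s * γ * (g s)⁻¹) • v)
      (funext fun l => by
        obtain ⟨c, hc⟩ := ys l
        have e : (∑ s : Sig, s.1 l • fun v : V => (g s * γ * (g s)⁻¹) • v) = c • (id : V → V) :=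
          funext fun v => by rw [Finset.sum_apply]; exact hc v
        have e' := congrArg F e
        rw [map_sum, map_smul, LinearMap.mem_ker.1 (F2 (Submodule.mem_span_singleton_self _)),
          smul_zero] at e'
        rw [Finset.sum_apply, Pi.zero_apply, ← e']
        exact Finset.sum_congr rfl fun s _ => by
          rw [map_smul, Pi.smul_apply, smul_eq_mul, smul_eq_mul, mul_comm]; rfl) s1
    rw [← uniq s1 1 (one_mem _) lin_one, one_mul, inv_one, mul_one] at this
    exact F1 this
  obtain ⟨c, hc⟩ := Submodule.mem_span_singleton.1 mem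
  have hc' : ∀ v : V, c • v = γ • v := fun v => congrFun hc v
  have c0 : c ≠ 0 := fun k => by
    obtain ⟨v, hv⟩ := exists_ne (0 : V)
    have := hc' v
    rw [k, zero_smul, eq_comm, smul_eq_zero_iff_eq] at this
    exact hv this
  exact ⟨Units.mk0 c c0, eq_of_smul_eq_smul (α := V) fun v => by rw [ks.hsc, ← hc']; rfl⟩

end H42.CL
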