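import Cfsg.Agent.H91.CL3Spec

/-! CL3 tower, slot SING. -/

set_option autoImplicit false
set_option linter.style.haveILetI false

namespace H42.CL

theorem arith {p k t s : ℕ} (hp : p.Prime) (ht : t < k) (hs : s < k)
    (h : ((p : ℤ) ^ k - 1) ∣ (p - 1) * (1 + p ^ t - 2 * p ^ s)) : t = 0 := by
  by_contra t0
  obtain ⟨t, rfl⟩ := Nat.exists_eq_succ_of_ne_zero t0
  obtain ⟨k, rfl⟩ : ∃ j, k = j + 1 := ⟨k - 1, by omega⟩
  have p2 : (2 : ℤ) ≤ p := by exact_mod_cast hp.two_le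
  have hT : (p : ℤ) ^ (t + 1) ≤ p ^ k := pow_le_pow_right₀ (by omega) (by omega)
  have hS : (p : ℤ) ^ s ≤ p ^ k := pow_le_pow_right₀ (by omega) (by omega)
  have t1 : (1 : ℤ) ≤ p ^ t := one_le_pow₀ (by omega)
  have s1 : (1 : ℤ) ≤ p ^ s := one_le_pow₀ (by omega)
  obtain ⟨q, hq⟩ := h
  simp only [Nat.succ_eq_add_one, pow_succ] at hq hT
  set P := (p : ℤ) ^ k with hP
  set T := (p : ℤ) ^ t with hTT
  have T2 : 2 ≤ T * p := by nlinarith
  have M0 : 0 ≤ P * p - 1 := by nlinarith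
  have q1 : q < 1 := by
    by_contra c
    have : (P * p - 1) * 1 ≤ (P * p - 1) * q := mul_le_mul_of_nonneg_left (by omega) M0
    nlinarith
  have q2 : -2 < q := by
    by_contra c
    have : (P * p - 1) * q ≤ (P * p - 1) * (-2) := mul_le_mul_of_nonneg_left (by omega) M0
    nlinarith
  rcases s with _ | s
  · rw [pow_zero] at hq
    obtain rfl | rfl : q = 0 ∨ q = -1 := by omega
    · rw [mul_zero] at hq
      rcases mul_eq_zero.1 hq with e | e <;> omega
    · nlinarith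
  · rw [pow_succ] at hq hS
    set S := (p : ℤ) ^ s with hSS
    obtain rfl | rfl : q = 0 ∨ q = -1 := by omega
    · have e : 1 + T * p - 2 * (S * p) = 0 := by
        rw [mul_zero] at hq
        exact (mul_eq_zero.1 hq).resolve_left (by omega)
      have : (p : ℤ) ∣ 1 := ⟨2 * S - T, by linear_combination e⟩
      have := Int.le_of_dvd one_pos this
      omega
    · have : (p : ℤ) ∣ 2 := ⟨1 + (p - 1) * (T - 2 * S) + P, by linear_combination (-1 : ℤ) * hq⟩
      have := Int.le_of_dvd two_pos this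
      have e : (p : ℤ) = 2 := by omega
      rw [e] at hq hS
      omega

theorem aut_pow (K : Type) [Field K] [Finite K] (p : ℕ) [Fact p.Prime] [CharP K p] :
    ∃ k, Nat.card K = p ^ k ∧ ∀ σ : K ≃+* K, ∃ t < k, ∀ x, σ x = x ^ p ^ t := by
  letI := ZMod.algebra K p
  refine ⟨Module.finrank (ZMod p) K, ?_, fun σ => ?_⟩
  · rw [Module.natCard_eq_pow_finrank (K := ZMod p), Nat.card_zmod]
  · obtain ⟨⟨t, ht⟩, e⟩ := (FiniteField.bijective_frobeniusAlgEquivOfAlgebraic_pow (ZMod p) K).2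
      (AlgEquiv.ofRingEquiv (f := σ) fun a =>
        RingHom.congr_fun (RingHom.ext_zmod (σ.toRingHom.comp (algebraMap _ _)) (algebraMap _ _)) a)
    refine ⟨t, ht, fun x => ?_⟩
    have := congrArg (fun f => f x) e
    simp only [AlgEquiv.coe_pow, FiniteField.coe_frobeniusAlgEquivOfAlgebraic_iterate, ZMod.card] at this
    exact this.symm

theorem jobSING : H91.CL.JobSING := by
  intro K _ _ h inj hyp
  obtain ⟨p, hp⟩ := CharP.exists K
  haveI : Fact p.Prime := ⟨CharP.char_is_prime K p⟩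
  have pp : p.Prime := Fact.out
  obtain ⟨k, hk, aut⟩ := aut_pow K p
  have h0 : h 0 = 0 := by
    obtain ⟨c, σ, a, -, e, -⟩ := hyp 0 0
    rw [e, map_zero, mul_zero, smul_zero]
  have hn : ∀ u, u ≠ 0 → h u ≠ 0 := fun u hu e => hu (inj (e.trans h0.symm))
  have fer : ∀ a : ℤ, (a : K) ≠ 0 → (a : K) ^ (p - 1) = 1 := fun a ha => by
    have : (a : K) ^ p = a := (Subfield.mem_bot_iff_pow_eq_self K p).1 (intCast_mem _ a)
    refine mul_right_cancel₀ ha ?_
    rw [← pow_succ, Nat.sub_add_cancel pp.one_le, this, one_mul]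
  have red : ∀ u, u ≠ 0 → ∀ (a : ℤ) (x : K), h u = a • x → h u ^ (p - 1) = x ^ (p - 1) :=
    fun u hu a x e => by
      have ha : (a : K) ≠ 0 := fun k => hn u hu (by rw [e, zsmul_eq_mul, k, zero_mul])
      rw [e, zsmul_eq_mul, mul_pow, fer a ha, one_mul]
  have pair : ∀ u v, u ≠ 0 → v ≠ 0 → ∃ σ : K ≃+* K,
      h (u * v) ^ (p - 1) = h u ^ (p - 1) * σ v ^ (p - 1) := fun u v hu hv => by
    obtain ⟨c, σ, a, b, e1, e2⟩ := hyp u (u * v)
    refine ⟨σ, ?_⟩
    rw [red _ hu _ _ e1, red _ (mul_ne_zero hu hv) _ _ e2, map_mul, ← mul_pow, mul_assoc]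
  obtain ⟨z, hz⟩ := IsCyclic.exists_generator (α := Kˣ)
  have z0 : (z : K) ≠ 0 := z.ne_zero
  obtain ⟨c, σ, a, b, e1, e2⟩ := hyp 1 z
  have c0 : c ≠ 0 := fun k => hn 1 one_ne_zero (by rw [e1, k, zero_mul, smul_zero])
  have w0 : σ z ≠ 0 := (map_ne_zero σ).2 z0
  have ord : orderOf (σ z) = p ^ k - 1 := by
    rw [show orderOf (σ z) = orderOf (z : K) from
      orderOf_injective σ.toMonoidHom σ.injective (z : K), orderOf_units,
      orderOf_eq_card_of_forall_mem_zpowers hz, Nat.card_units, hk]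
  have aut' : ∀ τ : K ≃+* K, ∃ t < k, τ z = σ z ^ p ^ t := fun τ => by
    obtain ⟨t, ht, e⟩ := aut (σ.symm.trans τ)
    exact ⟨t, ht, by rw [← e]; simp⟩
  have key : ∀ i : ℕ, h (z ^ i) ^ (p - 1) = (c * σ z ^ i) ^ (p - 1) ∧
      h (z ^ (i + 1)) ^ (p - 1) = (c * σ z ^ (i + 1)) ^ (p - 1) := fun i => by
    induction i with
    | zero =>
      refine ⟨?_, ?_⟩
      · rw [pow_zero, red _ one_ne_zero _ _ e1, map_one, pow_zero]
      · rw [zero_add, pow_one, red _ z0 _ _ e2, pow_one]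
    | succ i ih =>
      refine ⟨ih.2, ?_⟩
      obtain ⟨τ, f1⟩ := pair (z ^ (i + 1)) z (pow_ne_zero _ z0) z0
      obtain ⟨υ, f2⟩ := pair (z ^ i) (z ^ 2) (pow_ne_zero _ z0) (pow_ne_zero _ z0)
      obtain ⟨t, ht, g1⟩ := aut' τ
      obtain ⟨s, hs, g2⟩ := aut' υ
      rw [← pow_succ, ih.2, g1] at f1
      rw [← pow_add, ih.1, map_pow, g2, show i + 2 = i + 1 + 1 from rfl, f1] at f2
      have e : σ z ^ ((p - 1) * (1 + p ^ t)) = σ z ^ ((p - 1) * (2 * p ^ s)) := by
        refine mul_left_cancel₀ (pow_ne_zero (p - 1) (mul_ne_zero c0 (pow_ne_zero i w0))) ?_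
        calc _ = (c * σ z ^ (i + 1)) ^ (p - 1) * (σ z ^ p ^ t) ^ (p - 1) := by ring
          _ = _ := by rw [f2]; ring
      have e' : (p - 1) * (1 + p ^ t) ≡ (p - 1) * (2 * p ^ s) [MOD (p ^ k - 1)] := by
        rw [← ord]
        have hu : IsOfFinOrder (σ z) := by
          rw [← orderOf_pos_iff, ord]
          have := Nat.one_lt_pow (n := k) (by omega) pp.one_lt
          omega
        lift σ z to Kˣ using IsUnit.mk0 _ w0 with w hw
        rw [orderOf_units]
        exact pow_eq_pow_iff_modEq.1 (Units.ext (by simpa using e))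
      have t0 : t = 0 := arith pp ht hs (by
        have := e'.symm.dvd
        rw [Nat.cast_sub (Nat.one_le_pow _ _ pp.pos)] at this
        push_cast [Nat.cast_sub pp.one_le] at this
        convert this using 1
        ring)
      rw [f1, t0]
      ring
  refine ⟨c, σ, fun u => ?_⟩
  rcases eq_or_ne u 0 with rfl | hu
  · exact ⟨0, by rw [h0, zero_smul]⟩
  obtain ⟨i, hi⟩ : ∃ i : ℕ, z ^ i = Units.mk0 u hu :=
    mem_powers_iff_mem_zpowers.2 (hz (Units.mk0 u hu))
  have hi' : (z : K) ^ i = u := by rw [← Units.val_pow_eq_pow_val, hi]; rfl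
  have e := (key i).1
  rw [← map_pow, hi'] at e
  have x0 : c * σ u ≠ 0 := mul_ne_zero c0 ((map_ne_zero σ).2 hu)
  have : (h u / (c * σ u)) ^ p = h u / (c * σ u) := by
    conv_lhs => rw [← Nat.sub_add_cancel pp.one_le, pow_succ, div_pow, e,
      div_self (pow_ne_zero _ x0), one_mul]
  obtain ⟨n, hn⟩ := (mem_bot_iff_intCast p K).1 ((Subfield.mem_bot_iff_pow_eq_self K p).2 this)
  exact ⟨n, by rw [zsmul_eq_mul, hn, div_mul_cancel₀ _ x0]⟩

end H42.CL
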