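import Cfsg.Agent.H42.IVTop
import Cfsg.Agent.H55.IVQuo
import Cfsg.Agent.H17.IVEmb
import Cfsg.Agent.H91.IVC
import Cfsg.Agent.H40.IVCntA
import Cfsg.Agent.H45.IVCnt
import Cfsg.Agent.H90.IvCD
import Cfsg.Agent.H64.IvReg
import Cfsg.Agent.H29.IVCDZ
import Cfsg.Agent.H53.IvP1
import Cfsg.Agent.H62.IVP2
import Cfsg.Agent.H25.IvCheb
import Cfsg.Agent.H2.IvDih
import Cfsg.Agent.H9.IVExp
import Cfsg.Agent.H83.IVFib
import Cfsg.Agent.H58.IVDR
import Cfsg.Agent.H93.IvXA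
import Cfsg.Agent.H94.IVXB
import Cfsg.Agent.H41.IvCond
import Cfsg.Agent.H18.IVPar
import Cfsg.Agent.H20.IVGood
import Cfsg.Agent.H5.IVP
import Cfsg.Agent.H81.IVNumL
import Cfsg.Agent.H76.IVCore
import Cfsg.Agent.H66.IVRed
import Cfsg.Agent.H60.IvTop

/-! The tower up to the finite numerical check. -/

set_option autoImplicit false

namespace H42.IV

open Subgroup Nat

universe u

theorem fin (hS : JobNumS) {G : Type u} [Group G] [Finite G] [Nontrivial G] (α : MulAut G)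
    (hα : orderOf α = 2) (hG : closure (Set.range (fun c : G => c * (α c)⁻¹)) = ⊤) :
    (Cfsg.fittingSubgroup G).index < (Nat.card {g : G // Odd (orderOf g) ∧ α g = g⁻¹})! ^ 4 :=
  top H55.IVQuo.jobQuo H17.IVEmb.jobEmb H91.IVC.jobC H40.IVCntA.jobCntA H45.IVC.jobCnt
    H90.IvCD.jobCD H64.IvReg.jobReg H29.IVC.jobCDZ H53.IV.jobP1 H62.IV.jobP2 H25.IvCheb.jobCheb
    H2.IvDih.jobDih H9.IVExp.jobExp H83.IV.jobFib H58.IVDR.jobDR H93.IvXA.jobXA H94.IV.jobXB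
    H41.IvCond.jobCond H18.IVPar.jobPar H20.IVGood.jobGood H5.IVP.jobP hS H81.IVNumL.jobNumL
    H76.IVCore.jobCore H66.IVRed.jobRed H60.IvTop.jobTop α hα hG

end H42.IV
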