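import Cfsg.Agent.H42.IVSpec
import Cfsg.Agent.S3927
import Cfsg.Agent.S3949

/-! Assembly of the tower. -/

set_option autoImplicit false

namespace H42.IV

open Subgroup Nat

universe u

theorem top (hQuo : JobQuo.{u}) (hEmb : JobEmb.{u}) (hC : JobC.{u}) (hCntA : JobCntA.{u})
    (hCnt : JobCnt.{u}) (hCD : JobCD.{u}) (hReg : JobReg.{u}) (hCDZ : JobCDZ.{u})
    (hP1 : JobP1.{u}) (hP2 : JobP2.{u}) (hCheb : JobCheb.{u}) (hDih : JobDih.{u})
    (hExp : JobExp.{u}) (hFib : JobFib.{u}) (hDR : JobDR.{u}) (hXA : JobXA.{u}) (hXB : JobXB.{u})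
    (hCond : JobCond.{u}) (hPar : JobPar.{u}) (hGood : JobGood) (hP : JobP.{u}) (hS : JobNumS)
    (hL : JobNumL) (hCore : JobCore.{u}) (hRed : JobRed.{u}) (hTop : JobTop.{u})
    {G : Type u} [Group G] [Finite G] [Nontrivial G] (α : MulAut G) (hα : orderOf α = 2)
    (hG : closure (Set.range (fun c : G => c * (α c)⁻¹)) = ⊤) :
    (Cfsg.fittingSubgroup G).index < (Nat.card {g : G // Odd (orderOf g) ∧ α g = g⁻¹})! ^ 4 := by
  have h1 := Cfsg.Agent.S3949.result α hα hG (Nat.card G) fun g _ h =>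
    absurd ((Nat.le_of_dvd (orderOf_pos g) h).trans orderOf_le_card) Nat.lt_two_pow_self.not_ge
  have h2 := Cfsg.Agent.S3927.result α hG (Nat.card G) Nat.card_pos
  rw [h1] at h2
  exact hTop (hRed hQuo hC (hCore hEmb hCntA hCnt (hCDZ hCD hReg)
    (hP hGood (hExp hCheb hDih) hFib hDR hXA hXB (hCond hP1) (hPar (hP2 hP1)))
    fun h h1 => (le_or_gt h 1200).elim (hS h h1) (hL h))) G α hα h2

end H42.IV
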