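import Cfsg.Agent.H14.Comp
import Cfsg.Agent.H84.Hyp

/-! Groups in which cyclic 2-subgroups of the same order are conjugate have at most one component. -/

set_option autoImplicit false
open Cfsg Subgroup

namespace H42
open H14

universe u
variable {G : Type u} [Group G] [Finite G]

omit [Finite G] in
theorem quasi_quot_not_comm (h : IsQuasisimple G) : ¬ IsMulCommutative (G ⧸ center G) := by
  intro hc
  have := h.1
  have := h.2
  have : Group.IsPerfect (G ⧸ center G) :=
    Group.IsPerfect.ofSurjective (QuotientGroup.mk'_surjective _)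
  exact Group.IsPerfect.not_isMulCommutative (G ⧸ center G) hc

theorem comp_exists_two_elt (hFT : H84.FTThm.{u}) {L : Subgroup G} (hL : IsComponent L) :
    ∃ x ∈ L, x ∉ centralizer (L : Set G) ∧ ∃ k, orderOf x = 2 ^ k := by
  have := hL.2.2
  have hev : 2 ∣ Nat.card (L ⧸ center L) := by
    refine (Nat.not_odd_iff_even.1 fun h => quasi_quot_not_comm hL.2 ?_).two_dvd
    exact ⟨⟨IsSimpleGroup.comm_iff_isSolvable.2 (hFT h)⟩⟩
  obtain ⟨y, hy⟩ := exists_prime_orderOf_dvd_card' 2 hev
  obtain ⟨y, rfl⟩ := QuotientGroup.mk'_surjective _ y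
  obtain ⟨k, m, hm, e⟩ := Nat.exists_eq_two_pow_mul_odd (orderOf_pos y).ne'
  refine ⟨(y ^ m : L), (y ^ m).2, fun hc => ?_, k, ?_⟩
  · have h1 : y ^ m ∈ center L := mem_center_iff.2 fun g =>
      Subtype.ext (mem_centralizer_iff.1 hc g g.2)
    have h2 := (QuotientGroup.eq_one_iff _).2 h1
    rw [← QuotientGroup.mk'_apply, map_pow, ← orderOf_dvd_iff_pow_eq_one, hy] at h2
    exact hm.not_two_dvd_nat h2
  · rw [Subgroup.orderOf_coe, orderOf_pow' _ hm.pos.ne', e, Nat.gcd_mul_left_left,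
      Nat.mul_div_cancel _ hm.pos]

theorem comp_unique_aux
    (hP : ∀ A B : Subgroup G, IsCyclic A → IsCyclic B → IsPGroup 2 A → Nat.card A = Nat.card B →
      ∃ g : G, B = A.map (MulAut.conj g).toMonoidHom)
    {L K : Subgroup G} (hL : IsComponent L) (hK : IsComponent K) (hne : L ≠ K) {x y : G}
    (hx : x ∈ L) (hx' : x ∉ centralizer (L : Set G)) (hy : y ∈ K) (hy' : y ∉ centralizer (K : Set G))
    {k : ℕ} (hk : orderOf x = 2 ^ k) (hd : orderOf y ∣ orderOf x) : False := by
  have c1 : L ≤ centralizer (K : Set G) :=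
    commutator_eq_bot_iff_le_centralizer.1 (comp_commute_of_ne hL hK hne)
  have c2 : K ≤ centralizer (L : Set G) := le_centralizer_iff.1 c1
  have hc : Commute x y := (mem_centralizer_iff.1 (c1 hx) y hy).symm
  have h1 : orderOf (x * y) ∣ orderOf x := orderOf_dvd_of_pow_eq_one (by
    rw [hc.mul_pow, pow_orderOf_eq_one, one_mul, ← orderOf_dvd_iff_pow_eq_one]; exact hd)
  obtain ⟨m, hm⟩ := h1
  have hm0 : m ≠ 0 := by rintro rfl; exact (orderOf_pos x).ne' (by simpa using hm)
  have h2 : orderOf (x ^ m) = orderOf (x * y) := by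
    rw [orderOf_pow' _ hm0, hm, Nat.gcd_mul_left_left, Nat.mul_div_cancel _ (Nat.pos_of_ne_zero hm0)]
  obtain ⟨j, -, hj⟩ := (Nat.dvd_prime_pow Nat.prime_two).1 (hk ▸ orderOf_pow_dvd m : _ ∣ 2 ^ k)
  obtain ⟨g, hg⟩ := hP (zpowers (x ^ m)) (zpowers (x * y)) inferInstance inferInstance
    (IsPGroup.of_card (n := j) (by rw [Nat.card_zpowers, hj])) (by simp [Nat.card_zpowers, h2])
  have h3 : x * y ∈ L.map (MulAut.conj g).toMonoidHom :=
    map_mono (zpowers_le.2 (L.pow_mem hx m)) (hg ▸ mem_zpowers (x * y))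
  have hL' := comp_map_conj hL g
  by_cases e : L.map (MulAut.conj g).toMonoidHom = L
  · have : x * y ∈ centralizer (K : Set G) := c1 (e ▸ h3)
    exact hy' ((mul_mem_cancel_left (c1 hx)).1 this)
  · have : x * y ∈ centralizer (L : Set G) :=
      commutator_eq_bot_iff_le_centralizer.1 (comp_commute_of_ne hL' hL e) h3
    exact hx' ((mul_mem_cancel_right (c2 hy)).1 this)

theorem layer_simple_of_cyclic_conj (hFT : H84.FTThm.{u})
    (hP : ∀ A B : Subgroup G, IsCyclic A → IsCyclic B → IsPGroup 2 A → Nat.card A = Nat.card B →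
      ∃ g : G, B = A.map (MulAut.conj g).toMonoidHom) (hE : layer G ≠ ⊥) :
    IsSimpleGroup (layer G ⧸ center (layer G)) ∧ ¬ IsMulCommutative (layer G ⧸ center (layer G)) := by
  obtain ⟨L, hL⟩ : ∃ L : Subgroup G, IsComponent L := by
    by_contra h
    exact hE (layer_eq_bot_iff.2 (not_exists.1 h))
  have e : layer G = L := by
    refine le_antisymm (layer_le fun K hK => le_of_eq ?_) (comp_le_layer hL)
    by_contra hne
    obtain ⟨x, hx, hx', k, hk⟩ := comp_exists_two_elt hFT hL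
    obtain ⟨y, hy, hy', l, hl⟩ := comp_exists_two_elt hFT hK
    rcases le_total k l with h | h
    · exact comp_unique_aux hP hK hL hne hy hy' hx hx' hl (hk ▸ hl ▸ pow_dvd_pow 2 h)
    · exact comp_unique_aux hP hL hK (Ne.symm hne) hx hx' hy hy' hk (hk ▸ hl ▸ pow_dvd_pow 2 h)
  rw [e]
  exact ⟨hL.2.2, quasi_quot_not_comm hL.2⟩

end H42
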