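import Cfsg.Agent.H68.OuSpec

/-! ORE4 tower (row S2446), slot N. -/

set_option autoImplicit false
set_option linter.style.haveILetI false
set_option linter.unusedSectionVars false

namespace H42.Ou

open Polynomial Module H53 H60.Ore H68.Ou H59

universe u

variable {F : Type u} [Field F] [Fintype F] {q : ℕ}

theorem mu_iff (hF : Fintype.card F = q ^ 2) (a : F) : Mu (frob hF) a ↔ a ^ (q + 1) = 1 := by
  rw [H68.Ou.Mu, frob_apply, pow_succ']

theorem exists_notMem {p : F → Prop} {n : ℕ} (h : Nat.card {x // p x} = n) (T : Finset F)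
    (hT : T.card < n) : ∃ x, p x ∧ x ∉ T := by
  classical
  rw [Nat.card_eq_fintype_card, Fintype.card_subtype] at h
  obtain ⟨x, h1, h2⟩ := Finset.exists_mem_notMem_of_card_lt_card (h ▸ hT)
  exact ⟨x, (Finset.mem_filter.1 h1).2, h2⟩

theorem coeff_zero_minpoly {E : Type*} [Field E] [Algebra F E] [FiniteDimensional F E] {z : E}
    (h : (minpoly F z).natDegree = finrank F E) :
    Algebra.norm F z = (-1) ^ finrank F E * (minpoly F z).coeff 0 := by
  have h1 : (Algebra.lmul F E z).charpoly = minpoly F z := by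
    refine eq_of_monic_of_dvd_of_natDegree_le (minpoly.monic (Algebra.IsIntegral.isIntegral z))
      (LinearMap.charpoly_monic _) ?_ (by rw [LinearMap.charpoly_natDegree, h])
    rw [← minpoly.algHom_eq (Algebra.lmul F E) (Algebra.lmul_injective) z]
    exact LinearMap.minpoly_dvd_charpoly _
  rw [← h1, ← LinearMap.det_eq_sign_charpoly_coeff]
  rfl

theorem av_ext (hF : Fintype.card F = q ^ 2) (m : ℕ) (D : F) (hm : 2 ≤ m) (hD : Mu (frob hF) D)
    (E : Type) [Field E] [Algebra F E] [Finite E] (rE : finrank F E = m) : Av (frob hF) m D := by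
  obtain ⟨p, a, pp, hc, a0, hq⟩ := exists_char_pow hF
  haveI := Fact.mk pp
  have q2 := two_le_q hF
  haveI : CharP E p := charP_of_injective_algebraMap (algebraMap F E).injective p
  have cF : Nat.card F = q ^ 2 := by rw [Nat.card_eq_fintype_card, hF]
  have cE : Nat.card E = (q ^ 2) ^ m := by rw [Module.natCard_eq_pow_finrank (K := F), cF, rE]
  obtain ⟨γ, hγ⟩ := IsCyclic.exists_generator (α := Eˣ)
  obtain ⟨x, x0, hx⟩ := exists_div_eq_of_norm_one (frob_ne_id hF) (frob_frob hF) hD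
  obtain ⟨y, hy⟩ := FiniteField.unitsMap_norm_surjective F E (Units.mk0 x x0)
  obtain ⟨k₀, rfl⟩ : ∃ k : ℕ, γ ^ k = y := mem_powers_iff_mem_zpowers.2 (hγ y)
  set η := Algebra.norm F (γ : E) with hη
  have hy' : η ^ k₀ = x := by simpa using congrArg Units.val hy
  have η0 : η ≠ 0 := Algebra.norm_ne_zero_iff.2 γ.ne_zero
  obtain ⟨k, k1, k2, hk⟩ : ∃ k, 0 < k ∧ k ≤ q + 1 ∧ η ^ k = D * frob hF (η ^ k) := by
    refine ⟨(k₀ + q) % (q + 1) + 1, by omega, Nat.mod_lt _ (by omega), ?_⟩
    have e := Nat.mod_add_div (k₀ + q) (q + 1)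
    set t := (k₀ + q) / (q + 1)
    have e1 : η ^ ((k₀ + q) % (q + 1) + 1) * (η ^ (q + 1)) ^ t = x * η ^ (q + 1) := by
      rw [← hy', ← pow_mul, ← pow_add, ← pow_add]
      congr 1
      omega
    have e2 : frob hF (η ^ (q + 1)) = η ^ (q + 1) := norm_fixed hF η
    have e3 := congrArg (frob hF) e1
    rw [map_mul, map_mul, map_pow _ _ t, e2] at e3
    refine mul_right_cancel₀ (pow_ne_zero t (pow_ne_zero (q + 1) η0)) ?_
    rw [e1, mul_assoc, e3, ← mul_assoc, ← hx]
  obtain ⟨m, rfl⟩ : ∃ j, m = j + 1 := ⟨m - 1, by omega⟩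
  have z0 : ((γ : E) ^ k) ≠ 0 := pow_ne_zero _ γ.ne_zero
  have ord : ∀ e, 0 < e → e < (q ^ 2) ^ m → ((γ : E) ^ k) ^ e ≠ 1 := fun e e0 e1 h => by
    rw [← pow_mul, ← Units.val_pow_eq_pow_val, Units.val_eq_one, ← orderOf_dvd_iff_pow_eq_one,
      orderOf_eq_card_of_forall_mem_zpowers hγ, Nat.card_units, cE, pow_succ] at h
    have h1 := Nat.le_of_dvd (Nat.mul_pos k1 e0) h
    have h2 : k * (e + 1) ≤ (q + 1) * (q ^ 2) ^ m := Nat.mul_le_mul k2 e1
    have h3 : (q + 2) * (q ^ 2) ^ m ≤ q ^ 2 * (q ^ 2) ^ m := Nat.mul_le_mul_right _ (by nlinarith)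
    have h4 : (q ^ 2) ^ m * q ^ 2 ≤ k * e + 1 := by omega
    nlinarith
  set z := (γ : E) ^ k with hz
  have zi : IsIntegral F z := Algebra.IsIntegral.isIntegral z
  have deg : (minpoly F z).natDegree = m + 1 := by
    refine le_antisymm (rE ▸ minpoly.natDegree_le z) (not_lt.1 fun h => ?_)
    have j0 := minpoly.natDegree_pos zi
    haveI := Fintype.ofFinite (IntermediateField.adjoin F {z})
    have h1 := FiniteField.pow_card_sub_one_eq_one (IntermediateField.AdjoinSimple.gen F z)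
      fun e => z0 (congrArg Subtype.val e)
    rw [Module.card_eq_pow_finrank (K := F), IntermediateField.adjoin.finrank zi, hF] at h1
    have h2 : 1 < (q ^ 2) ^ (minpoly F z).natDegree := Nat.one_lt_pow j0.ne' (by nlinarith)
    have h3 : (q ^ 2) ^ (minpoly F z).natDegree ≤ (q ^ 2) ^ m :=
      Nat.pow_le_pow_right (by positivity) (by omega)
    exact ord _ (by omega) (by omega) (congrArg Subtype.val h1)
  have nz := coeff_zero_minpoly (deg.trans rE.symm)
  have c0 : (minpoly F z).coeff 0 ≠ 0 := minpoly.coeff_zero_ne_zero zi z0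
  refine ⟨minpoly F z, minpoly.monic zi, minpoly.irreducible zi, deg, c0, fun h => ?_, ?_⟩
  · have h1 : aeval (z ^ q) ((minpoly F z).map (frob hF)) = 0 := by
      have := map_aeval_eq_aeval_map (φ := frob hF) (ψ := iterateFrobenius E p a)
        (RingHom.ext fun c => by simp [frob_apply, iterateFrobenius_def, hq]) (minpoly F z) z
      rw [minpoly.aeval, map_zero, iterateFrobenius_def, ← hq] at this
      exact this.symm
    have h2 := aeval_pstar (σ := frob hF) (inv_mul_cancel₀ (pow_ne_zero q z0)) c0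
    rw [h, h1, mul_zero, smul_zero] at h2
    obtain ⟨g, hg⟩ := minpoly.exists_algEquiv_of_root' zi.isAlgebraic h2
    obtain ⟨⟨i, hi⟩, rfl⟩ := (FiniteField.bijective_frobeniusAlgEquivOfAlgebraic_pow F E).2 g
    simp only [AlgEquiv.coe_pow, FiniteField.coe_frobeniusAlgEquivOfAlgebraic_iterate, hF] at hg
    rw [rE] at hi
    have h3 : z ^ (q ^ 2) ^ i * z ^ q = 1 := by rw [hg, inv_mul_cancel₀ (pow_ne_zero q z0)]
    have h4 : q ^ 2 ≤ (q ^ 2) ^ m := Nat.le_self_pow (by omega) _
    rcases i with _ | i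
    · exact ord (q + 1) (by omega) (by nlinarith) (by rw [← h3]; ring)
    · have h5 : (q ^ 2) ^ (i + 1) ≤ (q ^ 2) ^ m := Nat.pow_le_pow_right (by positivity) (by omega)
      have h6 : 1 ≤ (q ^ 2) ^ i := Nat.one_le_pow _ _ (by positivity)
      refine ord ((q ^ 2) ^ i * q + 1) (by omega) ?_ ((iterateFrobenius E p a).injective ?_)
      · have h7 : 2 ≤ (q ^ 2) ^ i * q := by nlinarith
        have h8 : (q ^ 2) ^ i * q * 2 ≤ (q ^ 2) ^ i * q * q := Nat.mul_le_mul_left _ q2
        have h9 : (q ^ 2) ^ (i + 1) = (q ^ 2) ^ i * q * q := by ring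
        omega
      · rw [map_one, iterateFrobenius_def, ← hq, ← h3]
        ring
  · rw [hz, map_pow, ← hz] at nz
    rw [nz, map_mul, map_pow, map_neg, map_one, mul_left_comm] at hk
    exact mul_left_cancel₀ (pow_ne_zero _ (neg_ne_zero.2 one_ne_zero)) hk

theorem av_big (hF : Fintype.card F = q ^ 2) (m : ℕ) (D : F) (hm : 2 ≤ m) (hD : Mu (frob hF) D) :
    Av (frob hF) m D := by
  obtain ⟨p, -, pp, hc, -⟩ := exists_char_pow hF
  haveI := Fact.mk pp
  haveI : NeZero m := ⟨by omega⟩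
  exact av_ext hF m D hm hD (FiniteField.Extension F p m) (FiniteField.finrank_extension F p m)

theorem av_one (hF : Fintype.card F = q ^ 2) (D : F) (hD : Mu (frob hF) D)
    (h : 4 ≤ q ∨ q = 3 ∧ D * D = -1) : Av (frob hF) 1 D := by
  classical
  obtain ⟨z, z0, h1, h2⟩ : ∃ z, z ≠ 0 ∧ z = D * frob hF z ∧ z * frob hF z ≠ 1 := by
    obtain ⟨x, x0, hx⟩ := exists_div_eq_of_norm_one (frob_ne_id hF) (frob_frob hF) hD
    by_cases e : x * frob hF x = 1
    swap
    · exact ⟨x, x0, hx, e⟩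
    rcases h with h | ⟨rfl, h⟩
    · obtain ⟨t, t1, t2⟩ := exists_notMem (card_fixed hF) {0, 1, -1}
        (lt_of_le_of_lt Finset.card_le_three h)
      simp only [Finset.mem_insert, Finset.mem_singleton, not_or] at t2
      have t3 : frob hF t = t := t1
      refine ⟨t * x, mul_ne_zero t2.1 x0, by rw [map_mul, t3, mul_left_comm, ← hx], fun k => ?_⟩
      rw [map_mul, t3, mul_mul_mul_comm, e, mul_one, mul_self_eq_one_iff] at k
      exact k.elim t2.2.1 t2.2.2
    · have h9 := FiniteField.cast_card_eq_zero F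
      rw [hF] at h9
      rw [frob_apply] at e hx
      have hd : D = x ^ 2 := by linear_combination (-D) * e - x * hx
      rw [hd] at h
      refine (one_ne_zero (α := F) ?_).elim
      push_cast at h9
      linear_combination h9 - 4 * h + 4 * e
  refine ⟨X - C z, monic_X_sub_C z, irreducible_X_sub_C z, natDegree_X_sub_C z, by simpa using z0,
    fun k => h2 ?_, by simpa using h1⟩
  rw [pstar_X_sub_C z0, sub_right_inj, C_inj] at k
  exact (congrArg (· * frob hF z) k).symm.trans (inv_mul_cancel₀ ((_root_.map_ne_zero _).2 z0))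

theorem odd_deg (hF : Fintype.card F = q ^ 2) (φ : F[X]) (h : SD (frob hF) φ) (hi : Irreducible φ) :
    Odd φ.natDegree := by
  haveI := Fact.mk hi
  obtain ⟨τ, h1, -, h2⟩ := exists_invol (frob_frob hF) h.c0 h.sd
  let pb := AdjoinRoot.powerBasis hi.ne_zero
  haveI := pb.finite
  haveI : Finite (AdjoinRoot φ) := Module.finite_of_finite F
  haveI := Fintype.ofFinite (AdjoinRoot φ)
  have ne : ∀ τ' : AdjoinRoot φ →+* AdjoinRoot φ, τ = τ' →
      ¬ ∀ a, τ' (algebraMap F _ a) = algebraMap F _ a := fun τ' e k =>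
    frob_ne_id hF (RingHom.ext fun a => (algebraMap F (AdjoinRoot φ)).injective (by
      rw [← h1, e, k]; rfl))
  obtain ⟨r, hr, e⟩ := exists_card_eq_sq (fun k => ne _ k fun _ => rfl) h2
  refine Nat.not_even_iff_odd.1 fun ⟨d, hd⟩ => ne _ e fun a => ?_
  have h3 : r = Fintype.card F ^ d := by
    refine Nat.pow_left_injective two_ne_zero ?_
    simp only
    rw [← hr, Module.card_eq_pow_finrank (K := F), pb.finrank, AdjoinRoot.powerBasis_dim, hd]
    ring
  rw [frob_apply, ← map_pow, h3, FiniteField.pow_card_pow]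

theorem jobN : JobN.{u} := by
  intro F _ _ σ hσ
  classical
  haveI := Fintype.ofFinite F
  obtain ⟨q, hF, rfl⟩ := exists_card_eq_sq hσ.ne hσ.inv
  have q2 := two_le_q hF
  rw [Nat.card_eq_fintype_card, hF]
  have e4 : q ^ 2 = 4 → q = 2 := fun h => by nlinarith
  have e9 : q ^ 2 = 9 → q = 3 := fun h => by nlinarith
  refine ⟨av_big hF, fun D hD h => av_one hF D hD
    (h.imp (fun k => by nlinarith) fun k => ⟨e9 k.1, k.2⟩), odd_deg hF, fun a b => ?_, ?_,
    fun h a => ?_, fun h => ⟨fun a => ?_, ?_⟩⟩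
  · obtain ⟨x, h1, h2⟩ := exists_notMem (card_norm_one hF) {a, b}
      (lt_of_le_of_lt Finset.card_le_two (by omega))
    simp only [Finset.mem_insert, Finset.mem_singleton, not_or] at h2
    exact ⟨x, (mu_iff hF x).2 h1, h2⟩
  · obtain rfl | rfl | h : q = 2 ∨ q = 3 ∨ 4 ≤ q := by omega
    · exact .inl rfl
    · exact .inr (.inl rfl)
    · exact .inr (.inr (by nlinarith))
  · rw [mu_iff, e4 h]
  · rw [mu_iff, e9 h]
  · obtain ⟨i, hi⟩ := (FiniteField.isSquare_neg_one_iff (F := F)).2 (by rw [hF, h]; decide)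
    exact ⟨i, hi.symm⟩

end H42.Ou
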