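/- PN tower (S3399): assembly. -/
import Cfsg.Agent.H42.PnSpec

set_option autoImplicit false
set_option linter.unusedSectionVars false

namespace H42.PN
open Equiv MulAction Pointwise H2.Ln

section
variable {α : Type} [Fintype α] [DecidableEq α]

theorem cj_fx {G : Subgroup (Perm α)} {U : Finset α} {w : Perm α} (hw : w ∈ G) :
    cj (fx G U) w = fx G (w • U) := by
  ext x
  rw [mem_cj, mem_fx, mem_fx]
  constructor
  · rintro ⟨h1, h2⟩
    refine ⟨?_, fun a ha => ?_⟩
    · simpa [mul_assoc] using G.mul_mem (G.mul_mem hw h1) (G.inv_mem hw)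
    · simpa using h2 _ (mem_sm.1 ha)
  · rintro ⟨h1, h2⟩
    refine ⟨G.mul_mem (G.mul_mem (G.inv_mem hw) h1) hw, fun a ha => ?_⟩
    rw [Perm.mul_apply, Perm.mul_apply, h2 _ (app_mem_sm.2 ha)]
    simp

theorem le_fx {G K : Subgroup (Perm α)} (hK : K ≤ G) : K ≤ fx G (fp K) :=
  fun x hx => mem_fx.2 ⟨hK hx, fun _ ha => mem_fp.1 ha x hx⟩

theorem fp_fx {G K : Subgroup (Perm α)} (hK : K ≤ G) : fp (fx G (fp K)) = fp K := by
  ext a
  exact ⟨fun ha => mem_fp.2 fun k hk => mem_fp.1 ha k (le_fx hK hk),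
    fun ha => mem_fp.2 fun k hk => (mem_fx.1 hk).2 a ha⟩

theorem pro_fx {G K : Subgroup (Perm α)} (hK : K ≤ G) (h : Pro G K) : Pro G (fx G (fp K)) := by
  intro g hg
  obtain ⟨w, hw, e⟩ := h.ex hg
  refine ⟨w, hw _ ((le_fx hK).trans le_sup_left) (le_trans (fun x hx => ?_) le_sup_right), ?_⟩
  · exact mem_cj.2 (le_fx hK (mem_cj.1 hx))
  · rw [cj_fx (hw G hK (cj_le hK hg)), cj_fx hg, e]

theorem supp_le {x : Perm α} {U : Finset α} (h : ∀ a ∈ U, x a = a) :
    x.support.card + U.card ≤ Fintype.card α := by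
  rw [← Finset.card_union_of_disjoint]
  · exact Finset.card_le_univ _
  · exact Finset.disjoint_left.2 fun a ha hb => Perm.mem_support.1 ha (h a hb)

theorem c5_of (hFour : Four) (hDeg : Deg) (hNoAlt : NoAlt) (hAdj : Adj) (hFai : Fai) (hFro : Fro)
    {G K : Subgroup (Perm α)} (hq : Quo (Fintype.card α)) (h : Cx G K) : ∃ R, C5 G K R := by
  have h4 := hFour α G K hq h
  have hn := h.half
  have hf := h.four
  have hd := (hDeg α G (by omega) h4).resolve_left (hNoAlt α G K h)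
  have hd' : ∀ x ∈ G, x ≠ 1 → (fp K).card ≤ x.support.card + 1 := fun x hx h1 => by
    have := (hd x hx h1).2
    omega
  have six : 6 ≤ (fp K).card := by
    obtain ⟨x, hx⟩ := (Subgroup.ne_bot_iff_exists_ne_one).1 h.ne
    have h1 := (hd x.1 (h.le x.2) fun e => hx (Subtype.ext e)).1
    have h2 := supp_le (x := x.1) (U := fp K) fun a ha => mem_fp.1 ha _ x.2
    omega
  have t4 : T4 (sw G (fp K)) (fp K) := by
    intro a ha b hb c hc d hd a' ha' b' hb' c' hc' d' hd' e e'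
    obtain ⟨g, hg, h1, h2, h3, h5⟩ := h4 a (Finset.mem_univ _) b (Finset.mem_univ _) c
      (Finset.mem_univ _) d (Finset.mem_univ _) a' (Finset.mem_univ _) b' (Finset.mem_univ _) c'
      (Finset.mem_univ _) d' (Finset.mem_univ _) e e'
    obtain ⟨x, hx, hg'⟩ := h.pro.wit h.le hg
    exact ⟨x, hx, by rw [hg' a ha (h1 ▸ ha'), h1], by rw [hg' b hb (h2 ▸ hb'), h2],
      by rw [hg' c hc (h3 ▸ hc'), h3], by rw [hg' d hd (h5 ▸ hd'), h5]⟩
  have one : ∀ x ∈ K, ∀ s ∉ fp K, ∀ s' ∉ fp K, x s = s → x s' = s' → x = 1 ∨ s = s' := by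
    intro x hx s hs s' hs' e e'
    by_contra hc
    push Not at hc
    have h1 := hd' x (h.le hx) hc.1
    have h2 := supp_le (x := x) (U := insert s (insert s' (fp K))) fun a ha => by
      rcases Finset.mem_insert.1 ha with rfl | ha
      · exact e
      rcases Finset.mem_insert.1 ha with rfl | ha
      · exact e'
      · exact mem_fp.1 ha x hx
    rw [Finset.card_insert_of_notMem (by simp [hs, hc.2]), Finset.card_insert_of_notMem hs'] at h2
    omega
  have ti : ∀ x ∈ G, ∀ B ∈ bl G K, ∀ B' ∈ bl G K, (∀ a ∈ B, x a = a) → (∀ a ∈ B', x a = a) →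
      x = 1 ∨ B = B' := by
    intro x hx B hB B' hB' e e'
    by_contra hc
    push Not at hc
    obtain ⟨g, hg, rfl⟩ := mem_bl.1 hB
    obtain ⟨g', hg', rfl⟩ := mem_bl.1 hB'
    have h1 := hd' x hx hc.1
    have h2 := supp_le (x := x) (U := g • fp K ∪ g' • fp K) fun a ha =>
      (Finset.mem_union.1 ha).elim (e a) (e' a)
    have h3 := hAdj α G K h ((g⁻¹ * g') • fp K)
      (mem_bl.2 ⟨_, G.mul_mem (G.inv_mem hg) hg', rfl⟩)
    have h5 : (g • fp K ∩ g' • fp K).card = (fp K ∩ (g⁻¹ * g') • fp K).card := by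
      rw [← Finset.card_smul_finset g (fp K ∩ _), Finset.smul_finset_inter, smul_smul,
        mul_inv_cancel_left]
    have h6 := Finset.card_union_add_card_inter (g • fp K) (g' • fp K)
    rw [Finset.card_smul_finset, Finset.card_smul_finset] at h6
    have h7 : (g • fp K ∩ g' • fp K).card < (fp K).card := by
      by_contra h8
      push Not at h8
      refine hc.2 ?_
      have e1 : g • fp K ∩ g' • fp K = g • fp K :=
        Finset.eq_of_subset_of_card_le Finset.inter_subset_left (by rwa [Finset.card_smul_finset])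
      have e2 : g • fp K ∩ g' • fp K = g' • fp K :=
        Finset.eq_of_subset_of_card_le Finset.inter_subset_right (by rwa [Finset.card_smul_finset])
      rw [← e1, e2]
    omega
  obtain ⟨R, h1, h2, h3⟩ := hFro α K h.ne one
  exact ⟨R, h, t4, six, ti, hFai α G K six t4 hd', one, h1, h2, h3⟩

theorem c5_false (hDegN : DegN) (hEz : EzJ) (hAlt : Alt) (hElt : Elt) (hF1 : Fin1) (hF2 : Fin2)
    {G K R : Subgroup (Perm α)} (h : C5 G K R) : False := by
  have ez := hEz α G K R h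
  have e : fx (sw G (fp K)) (fp K) = K := by
    refine le_antisymm (fun x hx => h.full (mem_fx.2
      ⟨(mem_sw.1 (mem_fx.1 hx).1).1, (mem_fx.1 hx).2⟩)) ?_
    exact fun x hx => mem_fx.2 ⟨⟨h.le hx, sm_fp hx⟩, fun a ha => mem_fp.1 ha x hx⟩
  have h1 := hDegN α (sw G (fp K)) (fp K) h.four (fun x hx => hx.2) h.t4
  rw [e] at h1
  have h2 := hAlt α G K R h ez
  obtain ⟨y, hy, p, hp, hyp, hyK, ⟨k, hk, hyk⟩, h3, h4⟩ :=
    hElt α G K R h (h1.resolve_left (by omega))
  exact hyk (hF2 α G K R h ez y hy hyK h3 h4 (hF1 α G K R h ez y hy p hp hyp hyK h3 h4) k hk)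

theorem step (hOrb : Orb) (hQuo : QuoJ) (hThr : Thr)
    (hC : ∀ G K : Subgroup (Perm α), Quo (Fintype.card α) → Cx G K → False)
    (ih : IH (Fintype.card α)) {G K : Subgroup (Perm α)} (hK : K ≤ G) (hp : Pro G K) (h0 : K ≠ ⊥)
    (ht : ∀ a b : α, ∃ g ∈ G, g a = b) : 2 * (fp K).card + 1 ≤ Fintype.card α := by
  by_contra hc
  have hl := hOrb _ ih
  have hq := hQuo _ ih
  have hmv : ∃ a ∈ (Finset.univ : Finset α), a ∉ fp K := by
    obtain ⟨x, hx⟩ := (Subgroup.ne_bot_iff_exists_ne_one).1 h0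
    by_contra h1
    push Not at h1
    exact hx (Subtype.ext (Equiv.ext fun a => mem_fp.1 (h1 a (Finset.mem_univ _)) _ x.2))
  obtain ⟨h1, h2, h3⟩ := hThr α G K hl hq
    ⟨hK, hp, fun _ _ _ _ => Finset.mem_univ _, fun a _ b _ => ht a b, hmv⟩ (by omega)
  refine hC G (fx G (fp K)) hq ⟨inf_le_left, pro_fx hK hp, fun e => h0 ?_, ?_, h2, ?_, hl, ?_⟩
  · exact le_bot_iff.1 (e ▸ le_fx hK)
  · rwa [fp_fx hK]
  · rw [fp_fx hK]
  · rwa [fp_fx hK]
end

theorem ih_all (hOrb : Orb) (hQuo : QuoJ) (hThr : Thr)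
    (hC : ∀ (α : Type) [Fintype α] [DecidableEq α] (G K : Subgroup (Perm α)),
      Quo (Fintype.card α) → Cx G K → False) (N : ℕ) : IH N := by
  induction N with
  | zero => intro Γ β _ _ _ _ K h; omega
  | succ N ih =>
    intro Γ β _ _ _ _ K hN ht hp ⟨k, hk, b, hb⟩
    classical
    have ih' : IH (Fintype.card β) := fun Γ' β' _ _ _ _ K' h => ih Γ' β' K' (by omega)
    have hcj : ∀ (L : Subgroup Γ) (g : Γ), cj (L.map (toPermHom Γ β)) (toPermHom Γ β g) =
        (cj L g).map (toPermHom Γ β) := by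
      intro L g
      unfold cj
      rw [Subgroup.map_map, Subgroup.map_map]
      congr 1
      ext x
      simp [mul_smul]
    have h := step hOrb hQuo hThr (hC β) ih' (G := (toPermHom Γ β).range)
      (K := K.map (toPermHom Γ β)) (Subgroup.map_le_range _ _) ?_ ?_ ?_
    · have e : Nat.card {b : β // ∀ k ∈ K, k • b = b} = (fp (K.map (toPermHom Γ β))).card := by
        rw [← Nat.card_eq_finsetCard]
        refine Nat.card_congr (Equiv.subtypeEquivRight fun a => ?_)
        rw [mem_fp]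
        exact ⟨fun h x ⟨y, hy, e⟩ => e ▸ h y hy, fun h x hx => h _ ⟨x, hx, rfl⟩⟩
      omega
    · rintro _ ⟨g, rfl⟩
      obtain ⟨w, hw, e⟩ := hp g (Subgroup.mem_top _)
      refine ⟨toPermHom Γ β w, ?_, by rw [hcj, hcj, e]⟩
      rw [hcj, ← Subgroup.map_sup]
      exact ⟨w, hw, rfl⟩
    · intro e
      have : toPermHom Γ β k ∈ K.map (toPermHom Γ β) := ⟨k, hk, rfl⟩
      rw [e, Subgroup.mem_bot] at this
      exact hb (by simpa using congrArg (fun x : Perm β => x b) this)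
    · intro a c
      obtain ⟨g, hg⟩ := ht.exists_smul_eq a c
      exact ⟨_, ⟨g, rfl⟩, hg⟩

theorem main (hOrb : Orb) (hQuo : QuoJ) (hThr : Thr) (hFour : Four) (hDeg : Deg) (hDegN : DegN)
    (hNoAlt : NoAlt) (hAdj : Adj) (hFai : Fai) (hFro : Fro) (hEz : EzJ) (hAlt : Alt) (hElt : Elt)
    (hF1 : Fin1) (hF2 : Fin2) (n : ℕ) (G : Subgroup (Perm (Fin n)))
    (htrans : ∀ a b : Fin n, ∃ g ∈ G, g a = b) (K : Subgroup (Perm (Fin n))) (hKG : K ≤ G)
    (hK : K ≠ ⊥) (hpro : Pro G K) : 2 * Nat.card {a : Fin n // ∀ k ∈ K, k a = a} + 1 ≤ n := by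
  have hC : ∀ (α : Type) [Fintype α] [DecidableEq α] (G K : Subgroup (Perm α)),
      Quo (Fintype.card α) → Cx G K → False := fun α _ _ G K hq h => by
    obtain ⟨R, hR⟩ := c5_of hFour hDeg hNoAlt hAdj hFai hFro hq h
    exact c5_false hDegN hEz hAlt hElt hF1 hF2 hR
  have h := step hOrb hQuo hThr (hC _) (ih_all hOrb hQuo hThr hC _) hKG hpro hK htrans
  have e : Nat.card {a : Fin n // ∀ k ∈ K, k a = a} = (fp K).card := by
    rw [← Nat.card_eq_finsetCard]
    exact Nat.card_congr (Equiv.subtypeEquivRight fun a => mem_fp.symm)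
  rw [Fintype.card_fin] at h
  omega

end H42.PN
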