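import Cfsg.Agent.H70.R3Spec
import Cfsg.Agent.H27.Zsigmondy

/-! The bound for the primitive part of `p ^ m - 1`. -/

set_option autoImplicit false

namespace H42.R3NumA

open H70.R3 H90

theorem growth (f : ℕ) (hf : 42 ≤ f) : 230400 * 2 ^ 11 * f ^ 22 < 13 ^ f := by
  induction f, hf using Nat.le_induction with
  | base => norm_num
  | succ f hf ih =>
    have h1 : (42 * (f + 1)) ^ 22 ≤ (43 * f) ^ 22 := Nat.pow_le_pow_left (by omega) _
    rw [mul_pow, mul_pow] at h1
    have h2 : (f + 1) ^ 22 ≤ 13 * f ^ 22 := by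
      have h3 : 43 ^ 22 * f ^ 22 ≤ 42 ^ 22 * (13 * f ^ 22) := by
        rw [← mul_assoc]
        exact Nat.mul_le_mul_right _ (by norm_num)
      exact Nat.le_of_mul_le_mul_left (h1.trans h3) (by norm_num)
    rw [pow_succ 13 f]
    generalize (f + 1) ^ 22 = a at *
    generalize f ^ 22 = b at *
    generalize 13 ^ f = c at *
    omega

theorem ite_le (P : Prop) [Decidable P] (a b : ℕ) (h : a ≤ b) (h0 : 0 < a) :
    (if P then a else 1) ≤ b := by
  split_ifs <;> omega

theorem pbound_le (m : ℕ) (hm : 1 ≤ m) : pbound m ≤ 57600 * m ^ 10 := by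
  have h1 := ite_le (m + 1).Prime ((m + 1) ^ 4) ((2 * m) ^ 4)
    (Nat.pow_le_pow_left (by omega) _) (by positivity)
  have h2 := ite_le (2 * m + 1).Prime ((2 * m + 1) ^ 2) ((3 * m) ^ 2)
    (Nat.pow_le_pow_left (by omega) _) (by positivity)
  have h3 := ite_le (3 * m + 1).Prime ((3 * m + 1) ^ 2) ((4 * m) ^ 2)
    (Nat.pow_le_pow_left (by omega) _) (by positivity)
  have h4 := ite_le (4 * m + 1).Prime ((4 * m + 1) ^ 2) ((5 * m) ^ 2)
    (Nat.pow_le_pow_left (by omega) _) (by positivity)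
  calc pbound m ≤ (2 * m) ^ 4 * (3 * m) ^ 2 * (4 * m) ^ 2 * (5 * m) ^ 2 :=
        Nat.mul_le_mul (Nat.mul_le_mul (Nat.mul_le_mul h1 h2) h3) h4
    _ = 57600 * m ^ 10 := by ring

theorem pbound_pos (m : ℕ) : 0 < pbound m := by
  unfold pbound
  split_ifs <;> positivity

theorem dvd_pbound {p m : ℕ} (hp : 13 ≤ p) (hm : 3 ≤ m) (h : PB p m (2 * m)) (t : ℕ)
    (ht : H27.IsPrimDiv p m t) : t ∣ pbound m := by
  refine (Nat.dvd_iff_prime_pow_dvd_dvd _ _).2 fun r k hr hk => ?_
  rcases Nat.eq_zero_or_pos k with rfl | hk0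
  · simp
  have hrt : r ∣ t := (dvd_pow_self r hk0.ne').trans hk
  have hP : Ppd p m r := ⟨hr, hrt.trans ht.1, fun j hj hjm => ht.not_dvd hr hrt j hj hjm⟩
  obtain ⟨h1, h2⟩ := h r k hP (hk.trans ht.1)
  obtain ⟨j, hj⟩ := H27.dvd_sub_one_of_primitive (q := p) (n := m) (by omega) (by omega) hr hP.dvd
    fun i hi him => hP.min i hi him
  have h3 := hr.two_le
  have hj0 : 0 < j := Nat.pos_of_ne_zero (by rintro rfl; omega)
  have hj4 : j ≤ 4 := Nat.le_of_mul_le_mul_left (show m * j ≤ m * 4 by omega) (by omega)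
  unfold pbound
  interval_cases j
  · obtain rfl : r = m + 1 := by omega
    rw [if_pos hr]
    exact ((((pow_dvd_pow _ (h2 2 (by nlinarith))).mul_right _)).mul_right _).mul_right _
  · obtain rfl : r = 2 * m + 1 := by omega
    rw [if_pos hr]
    exact ((((pow_dvd_pow _ (h2 1 (by rw [pow_one]; omega))).mul_left _)).mul_right _).mul_right _
  · obtain rfl : r = 3 * m + 1 := by omega
    rw [if_pos hr]
    exact ((pow_dvd_pow _ (h2 1 (by rw [pow_one]; omega))).mul_left _).mul_right _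
  · obtain rfl : r = 4 * m + 1 := by omega
    rw [if_pos hr]
    exact (pow_dvd_pow _ (h2 1 (by rw [pow_one]; omega))).mul_left _

theorem jobNumA : H70.R3.JobNumA := by
  intro p m hp hm h
  have h1 := dvd_pbound hp hm h
  obtain ⟨t, ht, h2⟩ := H27.exists_isPrimDiv_ge (n := m) (q := p) (by omega) (by omega)
  have h3 : p ^ m.totient ≤ 4 * (pbound m * m) := h2.trans (Nat.mul_le_mul_left _
    (Nat.mul_le_mul_right _ (Nat.le_of_dvd (pbound_pos m) (h1 t ht))))
  refine ⟨h1, ?_, h3⟩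
  have h4 := (H27.le_two_mul_totient_sq m).1
  by_contra h5
  have h6 : 42 ≤ m.totient := by
    by_contra h7
    have := Nat.pow_le_pow_left (show m.totient ≤ 41 by omega) 2
    omega
  refine absurd (growth _ h6) (not_lt.2 ?_)
  calc 13 ^ m.totient ≤ p ^ m.totient := Nat.pow_le_pow_left hp _
    _ ≤ 4 * (pbound m * m) := h3
    _ ≤ 4 * (57600 * m ^ 10 * m) :=
        Nat.mul_le_mul_left _ (Nat.mul_le_mul_right _ (pbound_le m (by omega)))
    _ = 230400 * m ^ 11 := by ring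
    _ ≤ 230400 * (2 * m.totient ^ 2) ^ 11 := Nat.mul_le_mul_left _ (Nat.pow_le_pow_left h4 _)
    _ = 230400 * 2 ^ 11 * m.totient ^ 22 := by ring

end H42.R3NumA
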