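/- STD-R (S3323): the passage to `N(O) / O` and back (jobs LiftA, LiftB). -/
import Cfsg.Agent.H65.SRAux

set_option autoImplicit false
set_option linter.unusedSectionVars false
set_option linter.unusedVariables false

open Subgroup H63.Oc H64.SG H65.SR
open scoped commutatorElement

universe u v

namespace H42.SR

section Gen
variable {G H : Type*} [Group G] [Group H]

theorem odd_of_mem [Finite G] {O : Subgroup G} (ho : Odd (Nat.card O)) {o : G} (h : o ∈ O) :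
    Odd (orderOf o) := ho.of_dvd_nat (Subgroup.orderOf_dvd_natCard _ h)

theorem is2_of_sq {x : G} (h : x * x = 1) : Is2 x := ⟨1, by rw [pow_one, sq, h]⟩

theorem Is2.map' (f : G →* H) {x : G} (h : Is2 x) : Is2 (f x) := by
  obtain ⟨k, hk⟩ := h
  exact ⟨k, by rw [← map_pow, hk, map_one]⟩

/-- a `2`-element of the image is the image of a `2`-element, a power of any preimage -/
theorem exists_two_lift [Finite G] (f : G →* H) {g : G} (h : Is2 (f g)) :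
    ∃ n : ℕ, Is2 (g ^ n) ∧ f (g ^ n) = f g := by
  obtain ⟨j, hj⟩ := h
  obtain ⟨k, m, hm, e⟩ := Nat.exists_eq_two_pow_mul_odd (orderOf_pos g).ne'
  have hc : Nat.Coprime m (2 ^ j) := Nat.Coprime.pow_right _ (Nat.coprime_two_right.2 hm)
  obtain ⟨a, ha⟩ : ∃ a, m * a ≡ 1 [MOD 2 ^ j] := by
    obtain ⟨a, -, ha⟩ := Nat.exists_mul_mod_eq_of_coprime 1 hc (by positivity)
    exact ⟨a, ha⟩
  refine ⟨m * a, ⟨k, ?_⟩, ?_⟩
  · rw [← pow_mul, show m * a * 2 ^ k = 2 ^ k * m * a by ring, ← e, pow_mul, pow_orderOf_eq_one, one_pow]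
  · rw [map_pow]
    conv_rhs => rw [← pow_one (f g)]
    exact pow_eq_pow_iff_modEq.2 (ha.of_dvd (orderOf_dvd_of_pow_eq_one hj))

variable {f : H →* G} (hf : Function.Injective f) {s y : H} {X Y : Subgroup H}
include hf

theorem ns_map_iff : f s ∈ Ns (Y.map f) ↔ s ∈ Ns Y := by
  simp only [mem_normalizer_iff]
  constructor
  · intro h y
    have := h (f y)
    rwa [← map_inv, ← map_mul, ← map_mul, mem_map_iff_mem hf, mem_map_iff_mem hf] at this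
  · intro h g
    constructor
    · rintro ⟨y, hy, rfl⟩
      exact ⟨_, (h y).1 hy, by simp⟩
    · rintro ⟨y, hy, e⟩
      refine ⟨s⁻¹ * y * s, (h _).2 (by simpa [mul_assoc] using hy), ?_⟩
      simp [e, mul_assoc]

theorem cz_map_iff : f y ∈ Cz (f s) ↔ y ∈ Cz s := by
  rw [mem_Cz, mem_Cz, ← map_mul, ← map_mul, hf.eq_iff]

theorem le_cz_map_iff : X.map f ≤ Cz (f s) ↔ X ≤ Cz s :=
  ⟨fun h x hx => (cz_map_iff hf).1 (h ⟨x, hx, rfl⟩), by
    rintro h _ ⟨x, hx, rfl⟩; exact (cz_map_iff hf).2 (h hx)⟩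

theorem le_cs_map_iff : X.map f ≤ Cs (Y.map f) ↔ X ≤ Cs Y := by
  constructor
  · intro h x hx
    exact mem_Cs.2 fun y hy => hf (by
      rw [map_mul, map_mul]; exact mem_Cs.1 (h ⟨x, hx, rfl⟩) _ ⟨y, hy, rfl⟩)
  · rintro h _ ⟨x, hx, rfl⟩
    refine mem_Cs.2 ?_
    rintro _ ⟨y, hy, rfl⟩
    rw [← map_mul, ← map_mul, mem_Cs.1 (h hx) y hy]

theorem fr_map_iff : Fr (f s) (X.map f) (Y.map f) ↔ Fr s X Y := by
  constructor
  · intro h
    refine ⟨h.two.of_equiv (equivMapOfInjective Y f hf).symm, (ns_map_iff hf).1 h.tY, ?_, ?_, ?_⟩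
    · ext y
      rw [mem_inf, ← mem_map_iff_mem hf (K := X), ← h.fix, mem_inf, mem_map_iff_mem hf, cz_map_iff hf]
    · intro y hy e
      obtain ⟨_, ⟨u, hu, rfl⟩, e'⟩ := h.h1 _ ⟨y, hy, rfl⟩ (by rw [← map_mul, ← map_mul, e, map_one])
      exact ⟨u, hu, hf (by simpa using e')⟩
    · rw [← card_map_of_injective hf (K := Y), h.card, card_map_of_injective hf]
  · intro h
    refine ⟨h.two.map _, (ns_map_iff hf).2 h.tY, ?_, ?_, ?_⟩
    · ext g
      constructor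
      · rintro ⟨⟨y, hy, rfl⟩, hc⟩
        exact ⟨y, h.mem hy ((cz_map_iff hf).1 hc), rfl⟩
      · rintro ⟨x, hx, rfl⟩
        exact ⟨⟨x, h.le hx, rfl⟩, (cz_map_iff hf).2 (h.cX hx)⟩
    · rintro _ ⟨y, hy, rfl⟩ e
      obtain ⟨u, hu, e'⟩ := h.h1 y hy (hf (by simpa using e))
      exact ⟨_, ⟨u, hu, rfl⟩, by rw [← map_inv, ← map_mul, ← map_mul, e', map_mul]⟩
    · rw [card_map_of_injective hf, h.card, card_map_of_injective hf]

theorem db_map_iff : Db (f s) ⊥ (X.map f) (Y.map f) ↔ Db s ⊥ X Y := by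
  constructor
  · intro h
    refine ⟨bot_le, (map_le_map_iff_of_injective hf).1 h.leX, (le_cz_map_iff hf).1 h.cX,
      (ns_map_iff hf).1 h.tY, le_normalizer_of_normal (mem_top _),
      fun g _ => le_normalizer_of_normal (mem_top _), fun y hy => mem_bot.2 (hf ?_), fun y hy e => ?_,
      fun x hx => ?_⟩
    · rw [map_mul, h.sq1 ⟨y, hy, rfl⟩, map_one]
    · have := h.fix _ ⟨y, hy, rfl⟩ (by rw [← map_commutatorElement, mem_bot.1 e, map_one]; exact one_mem _)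
      rwa [sup_bot_eq, mem_map_iff_mem hf, ← sup_bot_eq X] at this
    · obtain ⟨_, ⟨y, hy, rfl⟩, e⟩ := h.onto1 ⟨x, hx, rfl⟩
      exact ⟨y, hy, mem_bot.2 (mul_inv_eq_one.2 (hf (by rw [map_commutatorElement, e])))⟩
  · intro h
    refine ⟨bot_le, map_mono h.leX, (le_cz_map_iff hf).2 h.cX,
      (ns_map_iff hf).2 h.tY, le_normalizer_of_normal (mem_top _),
      fun g _ => le_normalizer_of_normal (mem_top _), ?_, ?_, ?_⟩
    · rintro _ ⟨y, hy, rfl⟩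
      rw [← map_mul, h.sq1 hy, map_one]; exact one_mem _
    · rintro _ ⟨y, hy, rfl⟩ e
      rw [← map_commutatorElement, mem_bot, map_eq_one_iff _ hf] at e
      rw [sup_bot_eq, mem_map_iff_mem hf]
      exact h.fix1 hy (comm_eq_one_iff.1 e)
    · rintro _ ⟨x, hx, rfl⟩
      obtain ⟨y, hy, e⟩ := h.onto1 hx
      exact ⟨_, ⟨y, hy, rfl⟩, by rw [← map_commutatorElement, e, mul_inv_cancel]; exact one_mem _⟩

end Gen

section Lift
variable {K : Type*} [Field K] [Fintype K] [CharP K 2] {T : TF K} {G : Type*} [Group G] [Finite G]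
  {A : AD T G} {t : G} {O : Subgroup G} {G' : Type*} [Group G'] {φ : Ns O →* G'}

theorem Cf0.hL (h : Cf0 A t O) : A.G0 ≤ Ns O := h.ct.trans h.nO
theorem Cf0.ht (h : Cf0 A t O) : t ∈ Ns O := h.nO (mem_Cz.2 rfl)

theorem ker_iff (hk : φ.ker = O.subgroupOf (Ns O)) {g : Ns O} : φ g = 1 ↔ (g : G) ∈ O := by
  rw [← MonoidHom.mem_ker, hk, mem_subgroupOf]

theorem eq_iff (hk : φ.ker = O.subgroupOf (Ns O)) {g g' : Ns O} : φ g = φ g' ↔ (g : G)⁻¹ * g' ∈ O := by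
  rw [← inv_mul_eq_one, ← map_inv, ← map_mul, ker_iff hk]; rfl

theorem Cf0.OL1 (h : Cf0 A t O) (la : LA A) {g : G} (h1 : g ∈ O) (h2 : g ∈ A.G0) : g = 1 :=
  mem_bot.1 (la.cen ▸ mem_inf.2 ⟨h2, h.OL h1⟩)

theorem Cf0.cz_iff (h : Cf0 A t O) (hk : φ.ker = O.subgroupOf (Ns O)) {g : Ns O} :
    φ g ∈ Cz (φ ⟨t, Cf0.ht h⟩) ↔ (g : G) ∈ Cz t := by
  rw [← comm_eq_one_iff, ← comm_eq_one_iff, ← map_commutatorElement, ker_iff hk]
  refine ⟨fun ho => ?_, fun e => ?_⟩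
  · change ⁅t, (g : G)⁆ ∈ O at ho
    refine eq_one_of_odd (is2_of_sq ?_) (odd_of_mem h.odd ho)
    have e1 := mem_Cz.1 (h.Ot ho)
    have e2 : t * ⁅t, (g : G)⁆ * (t * ⁅t, (g : G)⁆) = 1 := by
      rw [← t_cj h.inv]
      calc _ = (g : G) * (t * t) * (g : G)⁻¹ := by group
        _ = 1 := by rw [h.inv.1]; group
    rwa [mul_assoc, ← mul_assoc ⁅t, (g : G)⁆, e1, ← mul_assoc, ← mul_assoc, h.inv.1, one_mul] at e2
  · change ⁅t, (g : G)⁆ ∈ O
    rw [e]; exact one_mem _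

end Lift

theorem jobLiftA : JobLiftA.{u, v} := by
  intro kit K _ _ _ T G _ _ A t O h la
  have : (O.subgroupOf (Ns O)).Normal := normal_in_normalizer
  let φ : Ns O →* Ns O ⧸ O.subgroupOf (Ns O) := QuotientGroup.mk' _
  have hk : φ.ker = O.subgroupOf (Ns O) := QuotientGroup.ker_mk' _
  have hs : Function.Surjective φ := QuotientGroup.mk'_surjective _
  have hL := Cf0.hL h
  have hφ : ∀ c, φ ⟨A.ι c, hL (ι_mem A c)⟩ = 1 → c = 1 := fun c e =>
    (ι_eq_one A).1 (Cf0.OL1 h la ((ker_iff hk).1 e) (ι_mem A c))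
  let A' := mapAD A (Ns O) hL φ hφ
  have hG : A'.G0 = (A.G0.subgroupOf (Ns O)).map φ := mapAD_G0 A _ hL φ hφ
  let ψ : A.G0 →* _ := φ.comp (inclusion hL)
  have hψ : Function.Injective ψ := (injective_iff_map_eq_one _).2 fun x e =>
    Subtype.ext (Cf0.OL1 h la ((ker_iff hk).1 e) x.2)
  have hr : ψ.range = A'.G0 := by
    rw [hG]
    ext y
    constructor
    · rintro ⟨x, rfl⟩; exact ⟨inclusion hL x, x.2, rfl⟩
    · rintro ⟨x, hx, rfl⟩; exact ⟨⟨x, hx⟩, rfl⟩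
  have iso : A'.G0 ≃* A.G0 := (MulEquiv.subgroupCongr hr).symm.trans (MonoidHom.ofInjective hψ).symm
  have mem : ∀ {g : Ns O}, (g : G) ∈ A.G0 → φ g ∈ A'.G0 := fun hg => hG ▸ ⟨_, hg, rfl⟩
  have memS : ∀ {g : Ns O}, (g : G) ∈ A.S → φ g ∈ A'.S := by
    rintro ⟨g, hg⟩ ⟨c, rfl⟩
    exact ⟨c, rfl⟩
  have ex : ∀ {y}, y ∈ A'.G0 → ∃ g : Ns O, (g : G) ∈ A.G0 ∧ φ g = y := fun hy => by
    rw [hG] at hy; exact hy
  have hi : Inv2 (φ ⟨t, Cf0.ht h⟩) := ⟨by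
    rw [← map_mul, ← map_one φ]; exact congrArg φ (Subtype.ext h.inv.1), fun e =>
    h.inv.2 (eq_one_of_odd (is2_of_sq h.inv.1) (odd_of_mem h.odd ((ker_iff hk).1 e)))⟩
  have hc : φ ⟨t, Cf0.ht h⟩ ∈ Cs A'.G0 := mem_Cs.2 fun y hy => by
    obtain ⟨g, hg, rfl⟩ := ex hy
    rw [← map_mul, ← map_mul]
    exact congrArg φ (Subtype.ext (mem_Cs.1 h.cen _ hg))
  refine ⟨_, inferInstance, inferInstance, φ, A', φ ⟨t, Cf0.ht h⟩,
    ⟨hs, hk, hL, ⟨_, rfl⟩, hG.symm, fun c _ => rfl, ⟨iso⟩⟩,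
    ⟨⟨h.card, mapAD_braid A _ hL φ hφ h.braid, fun P hP h2 => ?_, ?_⟩, hi, hc, fun y hy => ?_, by simp,
      bot_le, bot_le, fun y hy => ?_, fun g _ => le_normalizer_of_normal (mem_top g), fun y hy h2 => ?_, ?_⟩⟩
  · obtain ⟨g, hg, e⟩ := h.syl ((P.comap ψ).map A.G0.subtype) (map_subtype_le _)
      ((h2.comap_of_injective ψ hψ).map _)
    refine ⟨φ ⟨g, hL hg⟩, mem hg, fun x hx => ?_⟩
    obtain ⟨y, hy, rfl⟩ := ex (hP hx)
    rw [← map_inv, ← map_mul, ← map_mul]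
    exact memS (e _ ⟨⟨y, hy⟩, hx, rfl⟩)
  · obtain ⟨m, h1, h2, ⟨e⟩⟩ := h.iso
    exact ⟨m, h1, h2, ⟨iso.trans e⟩⟩
  · obtain ⟨g, rfl⟩ := hs y
    refine mem_ns_of fun x hx => ?_
    obtain ⟨l, hl, rfl⟩ := ex hx
    rw [← map_inv, ← map_mul, ← map_mul]
    exact mem (cj_mem (h.nrm ((Cf0.cz_iff h hk).1 hy)) hl)
  · obtain ⟨g, rfl⟩ := hs y
    have h1 := (Cf0.cz_iff h hk).1 hy.1
    have h2 : (g : G) ∈ Cs A.G0 := mem_Cs.2 fun l hl => by
      have e := mem_Cs.1 hy.2 _ (mem (g := ⟨l, hL hl⟩) hl)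
      have e' : φ ⁅g, ⟨l, hL hl⟩⁆ = 1 := by
        rw [map_commutatorElement, commutatorElement_eq_one_iff_mul_comm, e]
      exact (commutatorElement_eq_one_iff_mul_comm.1
        (Cf0.OL1 h la ((ker_iff hk).1 e') (comm_mem_left (h.nrm h1) hl))).symm
    rw [mem_zp_sup hi.1 (le_normalizer_of_normal (mem_top _)), mem_bot, mem_bot, ← map_mul,
      ker_iff hk, ker_iff hk]
    exact (mem_zp_sup h.inv.1 (Cf0.ht h)).1 (h.cc ⟨h1, h2⟩)
  · obtain ⟨g, rfl⟩ := hs y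
    obtain ⟨n, h3, e⟩ := exists_two_lift φ h2
    rw [← e] at hy ⊢
    rw [← map_mul]
    exact (h.two _ ((Cf0.cz_iff h hk).1 hy) (Is2.map' (Ns O).subtype h3)).imp mem mem
  · obtain ⟨g, h2, hO, hn, hc'⟩ := h.mv
    have tS : t ∈ Ns A.S := h.t_ns (S_le A)
    have tS' : φ ⟨t, Cf0.ht h⟩ ∈ Ns A'.S := cs_le_ns (cs_anti (S_le A') hc)
    have key : ∀ {x : Ns O}, (x : G) ∈ zpowers t ⊔ A.S → φ x ∈ zpowers (φ ⟨t, Cf0.ht h⟩) ⊔ A'.S := by
      intro x hx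
      rw [mem_zp_sup hi.1 tS', ← map_mul]
      exact ((mem_zp_sup h.inv.1 tS).1 hx).imp memS memS
    refine ⟨φ ⟨g, hO⟩, ?_, le_normalizer_of_normal (mem_top _), mem_ns_of fun y hy => ?_,
      fun e => hc' ((Cf0.cz_iff h hk).1 e)⟩
    · obtain ⟨k, hk⟩ := h2
      exact ⟨k, by rw [← map_pow, ← map_one φ]; exact congrArg φ (Subtype.ext hk)⟩
    · have : zpowers (φ ⟨t, Cf0.ht h⟩) ⊔ A'.S ≤ ((zpowers t ⊔ A.S).subgroupOf (Ns O)).map φ := by
        refine sup_le (zpowers_le.2 ⟨_, mem_sup_left (mem_zpowers t), rfl⟩) ?_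
        rintro _ ⟨c, rfl⟩
        exact ⟨⟨A.ι c, hL (ι_mem A c)⟩, mem_sup_right ⟨c, rfl⟩, rfl⟩
      obtain ⟨x, hx, rfl⟩ := this hy
      rw [← map_inv, ← map_mul, ← map_mul]
      exact key (cj_mem hn hx)

theorem jobLiftB : JobLiftB.{u, v} := by
  intro kit K _ _ _ T G _ _ A t O h la G' _ φ A' t' cv P' B' tp
  have : Fact (Nat.Prime 2) := ⟨Nat.prime_two⟩
  have : Finite G' := Finite.of_surjective φ cv.surj
  obtain ⟨ht, rfl⟩ := cv.ht
  have hL := cv.hL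
  have hi : φ ⟨t, ht⟩ * φ ⟨t, ht⟩ = 1 := by
    rw [← map_mul, ← map_one φ]; exact congrArg φ (Subtype.ext h.inv.1)
  set E' : Subgroup G' := zpowers (φ ⟨t, ht⟩) ⊔ P'
  have hE' : IsPGroup 2 E' := two_sup (two_zp hi) tp.fr.two (zpowers_le.2 tp.fr.tY)
  set X : Subgroup (Ns O) := E'.comap φ
  let ρ : X →* E' := (φ.comp X.subtype).codRestrict E' fun x => x.2
  have hρ : Function.Surjective ρ := fun y => by
    obtain ⟨g, hg⟩ := cv.surj y
    exact ⟨⟨g, by change φ g ∈ E'; rw [hg]; exact y.2⟩, Subtype.ext hg⟩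
  let j : X →* G := (Ns O).subtype.comp X.subtype
  have hj : Function.Injective j := (Ns O).subtype_injective.comp X.subtype_injective
  have hE : IsPGroup 2 (zpowers t ⊔ A.S : Subgroup G) :=
    two_sup (two_zp h.inv.1) la.twoU (zpowers_le.2 (h.t_ns (S_le A)))
  obtain ⟨S, hS⟩ := (hE.comap_of_injective j hj).exists_le_sylow
  have hS' : (S : Subgroup X).map ρ = ⊤ := by
    have := (S.mapSurjective hρ).is_maximal' (hE'.to_subgroup ⊤) le_top
    rw [← Sylow.coe_mapSurjective hρ, this]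
  let f : S →* G' := (φ.comp X.subtype).comp (S : Subgroup X).subtype
  let g : S →* G := j.comp (S : Subgroup X).subtype
  have hg : Function.Injective g := hj.comp (S : Subgroup X).subtype_injective
  have hf : Function.Injective f := (injective_iff_map_eq_one _).2 fun x e => by
    refine hg ((eq_one_of_odd (Is2.map' g (S.isPGroup' x)) ?_).trans (map_one g).symm)
    exact odd_of_mem h.odd ((ker_iff cv.ker).1 e)
  have hr : ∀ {Y : Subgroup G'}, Y ≤ P' → (Y.comap f).map f = Y := fun hY =>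
    map_comap_eq_self fun y hy => by
      obtain ⟨x, hx, e⟩ : (⟨y, mem_sup_right (hY hy)⟩ : E') ∈ (S : Subgroup X).map ρ := hS' ▸ mem_top _
      exact ⟨⟨x, hx⟩, congrArg Subtype.val e⟩
  let s : S := ⟨⟨⟨t, ht⟩, mem_sup_left (mem_zpowers _)⟩, hS (mem_sup_left (mem_zpowers t))⟩
  have hι : ∀ c, ∃ x : S, g x = A.ι c ∧ f x = A'.ι c := fun c =>
    ⟨⟨⟨⟨A.ι c, hL (ι_mem A c)⟩, by
      change φ _ ∈ E'
      rw [cv.hι]; exact mem_sup_right (tp.fr.le ⟨c, rfl⟩)⟩, hS (mem_sup_right ⟨c, rfl⟩)⟩, rfl, cv.hι _ _⟩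
  have him : ∀ Y : Subgroup (Co T), ((A'.im Y).comap f).map g = A.im Y := fun Y => by
    ext y
    constructor
    · rintro ⟨x, ⟨c, hc, e⟩, rfl⟩
      obtain ⟨x', e1, e2⟩ := hι c
      rw [hf (e.symm.trans e2.symm), e1]
      exact ⟨c, hc, rfl⟩
    · rintro ⟨c, hc, rfl⟩
      obtain ⟨x', e1, e2⟩ := hι c
      exact ⟨x', by change f x' ∈ A'.im Y; rw [e2]; exact ⟨c, hc, rfl⟩, e1⟩
  have hS1 : A.S = A.im ⊤ := MonoidHom.range_eq_map _
  have hS2 : A'.S = A'.im ⊤ := MonoidHom.range_eq_map _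
  have hB := tp.le
  refine ⟨(P'.comap f).map g, (B'.comap f).map g, ?_, ?_, map_mono (comap_mono tp.le), ?_, ?_⟩
  · rw [hS1, ← him]
    refine (fr_map_iff hg (s := s)).2 ((fr_map_iff hf).1 ?_)
    rw [hr le_rfl, hr (hS2 ▸ tp.fr.le), ← hS2]
    exact tp.fr
  · intro e
    exact tp.nt ((mem_map_iff_mem hg (x := s)).1 e)
  · refine (le_cs_map_iff hg).2 ((le_cs_map_iff hf).1 ?_)
    rw [hr le_rfl, hr hB]
    exact tp.cen
  · rw [← him]
    refine (db_map_iff hg (s := s)).2 ((db_map_iff hf).1 ?_)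
    rw [hr hB, hr (tp.db.leX.trans hB)]
    exact tp.db

end H42.SR
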