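/- STD-R (S3323): lifting the big subgroup from `N(O) / O` (job LiftC). -/
import Cfsg.Agent.H42.SRLiftA
import Cfsg.Agent.H65.SRAsm
import Cfsg.Agent.H21.Multiplier
import Cfsg.Agent.S2103
import Cfsg.Agent.S2114

set_option autoImplicit false
set_option linter.unusedSectionVars false
set_option linter.unusedVariables false

open Subgroup H63.Oc H64.SG H65.SR
open scoped commutatorElement

universe u v

namespace H42.SR

/-- a central extension of a perfect group with trivial multiplier splits over the derived group -/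
theorem central_split {Y M : Type*} [Group Y] [Group M] (ψ : Y →* M) (hs : Function.Surjective ψ)
    (hz : ψ.ker ≤ center Y) (hp : commutator M = ⊤) (hm : Cfsg.HasCyclicSchurMultiplier M 1) :
    ⁅commutator Y, commutator Y⁆ = commutator Y ∧ Nonempty (commutator Y ≃* M) := by
  have h1 : (commutator Y).map ψ = ⊤ := by
    rw [commutator_def, map_commutator, map_top_of_surjective _ hs, ← commutator_def, hp]
  have h2 : ∀ y, ∃ d ∈ commutator Y, ∃ z ∈ center Y, y = d * z := fun y => by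
    obtain ⟨d, hd, e⟩ : ψ y ∈ (commutator Y).map ψ := h1 ▸ mem_top _
    exact ⟨d, hd, d⁻¹ * y, hz (by rw [MonoidHom.mem_ker, map_mul, map_inv, e, inv_mul_cancel]), by group⟩
  have h3 : ⁅commutator Y, commutator Y⁆ = commutator Y := by
    refine le_antisymm (commutator_le_right _ _) ?_
    conv_lhs => rw [commutator_def]
    refine commutator_le.2 fun a _ b _ => ?_
    obtain ⟨d, hd, z, hz, rfl⟩ := h2 a
    obtain ⟨d', hd', z', hz', rfl⟩ := h2 b
    have e : ⁅d * z, d' * z'⁆ = ⁅d, d'⁆ := by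
      have e1 := mem_center_iff.1 hz
      have e2 := mem_center_iff.1 hz'
      simp only [commutatorElement_def, mul_inv_rev]
      calc _ = d * (z * (d' * z') * z⁻¹) * d⁻¹ * (z'⁻¹ * d'⁻¹) := by group
        _ = d * d' * (z' * d⁻¹ * z'⁻¹) * d'⁻¹ := by rw [← e1]; group
        _ = _ := by rw [← e2]; group
    rw [e]
    exact commutator_mem_commutator hd hd'
  refine ⟨h3, ?_⟩
  let τ := ψ.comp (commutator Y).subtype
  have hτ : Function.Surjective τ := fun m => by
    obtain ⟨d, hd, e⟩ : m ∈ (commutator Y).map ψ := h1 ▸ mem_top _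
    exact ⟨⟨d, hd⟩, e⟩
  have h4 : commutator (commutator Y) = ⊤ := by
    apply map_injective (commutator Y).subtype_injective
    rw [_root_.commutator_def (commutator Y), map_commutator, ← MonoidHom.range_eq_map, range_subtype, h3]
  have h5 := H21.card_ker_dvd_of_stem hm τ ⟨hτ, fun x hx => mem_center_iff.2 fun y =>
    Subtype.ext (mem_center_iff.1 (hz hx) y), h4 ▸ le_top⟩
  have h6 : τ.ker = ⊥ := by
    rw [Nat.card_congr Multiplicative.toAdd, Nat.card_zmod, Nat.dvd_one] at h5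
    exact card_eq_one.1 h5
  exact ⟨MulEquiv.ofBijective τ ⟨(MonoidHom.ker_eq_bot_iff _).1 h6, hτ⟩⟩

theorem lift_one {G G' M : Type*} [Group G] [Finite G] [Group G'] [Group M] {O : Subgroup G} {φ : Ns O →* G'}
    (hk : φ.ker = O.subgroupOf (Ns O)) {Q : Subgroup G'} (hQ : Q ≤ ((Cs O).subgroupOf (Ns O)).map φ)
    (e : Q ≃* M) (hp : commutator M = ⊤) (hm : Cfsg.HasCyclicSchurMultiplier M 1) :
    ∃ D : Subgroup G, D ≤ Cs O ∧ ⁅D, D⁆ = D ∧ (∀ d ∈ D, ∀ h : d ∈ Ns O, φ ⟨d, h⟩ ∈ Q) ∧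
      Nonempty (D ≃* M) := by
  let Y : Subgroup (Ns O) := (Cs O).subgroupOf (Ns O) ⊓ Q.comap φ
  let ψ : Y →* M := e.toMonoidHom.comp ((φ.comp Y.subtype).codRestrict Q fun y => y.2.2)
  let j : Y →* G := (Ns O).subtype.comp Y.subtype
  have hj : Function.Injective j := (Ns O).subtype_injective.comp Y.subtype_injective
  obtain ⟨h1, ⟨e'⟩⟩ := central_split ψ (fun m => by
      obtain ⟨g, hg, e1⟩ := hQ (e.symm m).2
      refine ⟨⟨g, hg, by change φ g ∈ Q; rw [e1]; exact (e.symm m).2⟩, ?_⟩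
      exact e.symm.injective (by
        change e.symm (e _) = _
        rw [e.symm_apply_apply]; exact Subtype.ext e1))
    (fun x hx => mem_center_iff.2 fun y => hj (by
      have : φ x = 1 := congrArg Subtype.val ((map_eq_one_iff _ e.injective).1 hx)
      rw [map_mul, map_mul]
      exact (mem_Cs.1 y.2.1 _ ((ker_iff hk).1 this)).symm)) hp hm
  refine ⟨(commutator Y).map j, ?_, by rw [← map_commutator, h1], ?_,
    ⟨(equivMapOfInjective _ j hj).symm.trans e'⟩⟩
  · rintro _ ⟨y, -, rfl⟩; exact y.2.1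
  · rintro _ ⟨y, -, rfl⟩ h; exact y.2.2

theorem jobLiftC : JobLiftC.{u, v} := by
  intro kit K _ _ _ T G _ _ A t O h la G' _ φ A' t' cv G₀' gp
  have : Finite G' := Finite.of_surjective φ cv.surj
  have hN : G₀' ≤ ((Cs O).subgroupOf (Ns O)).map φ := gp.ncl _
    (cv.mapL ▸ map_mono fun x hx => cs_symm h.OL hx) fun y _ => by
      obtain ⟨g, rfl⟩ := cv.surj y
      refine mem_ns_of ?_
      rintro _ ⟨x, hx, rfl⟩
      exact ⟨g * x * g⁻¹, (cj_mem (ns_cs g.2) (hx : (x : G) ∈ Cs O) :), by simp⟩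
  rcases gp.iso with ⟨⟨e⟩⟩ | ⟨L₁, L₂, rfl, hc, ⟨e₁⟩, ⟨e₂⟩⟩
  · obtain ⟨s1, s2⟩ := Cfsg.Agent.S1054.result (F := K) Cfsg.Lie.chevF4 (by simp)
    obtain ⟨D, -, -, -, hD⟩ := lift_one cv.ker hN e (perfect_of_simple s1 s2)
      (Cfsg.Agent.S2103.result (by have := h.card; omega))
    exact ⟨D, Or.inl hD⟩
  · obtain ⟨m, h1, h2, ⟨e⟩⟩ := h.iso
    obtain ⟨e'⟩ := cv.iso
    obtain ⟨s1, s2⟩ := Cfsg.Agent.S1072.result h1 h2
    have hm := Cfsg.Agent.S2114.result h1 h2
    obtain ⟨D₁, c₁, p₁, m₁, ⟨f₁⟩⟩ := lift_one cv.ker (le_sup_left.trans hN) (e₁.trans (e'.trans e))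
      (perfect_of_simple s1 s2) hm
    obtain ⟨D₂, c₂, p₂, m₂, ⟨f₂⟩⟩ := lift_one cv.ker (le_sup_right.trans hN) (e₂.trans (e'.trans e))
      (perfect_of_simple s1 s2) hm
    have h12 : ⁅D₁, D₂⁆ ≤ O := commutator_le.2 fun a ha b hb => by
      have ha' := cs_le_ns (c₁ ha)
      have hb' := cs_le_ns (c₂ hb)
      refine (ker_iff cv.ker (g := ⁅(⟨a, ha'⟩ : Ns O), (⟨b, hb'⟩ : Ns O)⁆)).1 ?_
      rw [map_commutatorElement]
      exact comm_eq_one_of_cs (hc (m₁ a ha ha')) (m₂ b hb hb')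
    have h3 : ⁅⁅D₁, D₂⁆, D₂⁆ = ⊥ := commutator_eq_bot_iff_le_centralizer.2 (h12.trans (cs_symm c₂))
    have h4 : D₂ ≤ Cs D₁ := by
      rw [← commutator_eq_bot_iff_le_centralizer, ← p₂]
      exact commutator_commutator_eq_bot_of_rotate (by rwa [commutator_comm D₂ D₁]) h3
    let g₁ := f₁.trans e.symm
    let g₂ := f₂.trans e.symm
    have hcm : ∀ a b, Commute (D₁.subtype a) (D₂.subtype b) := fun a b => mem_Cs.1 (h4 b.2) a a.2
    have hinj : Function.Injective (D₁.subtype.noncommCoprod D₂.subtype hcm) :=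
      (injective_iff_map_eq_one _).2 fun x hx => by
        have hx' : (x.1 : G) * x.2 = 1 := hx
        have h5 : g₁ x.1 = 1 := Subtype.ext (mem_bot.1 (la.cen ▸ mem_inf.2 ⟨(g₁ x.1).2,
          mem_Cs.2 fun l hl => ?_⟩))
        · have h6 : x.1 = 1 := (map_eq_one_iff _ g₁.injective).1 h5
          rw [h6, OneMemClass.coe_one, one_mul] at hx'
          exact Prod.ext h6 (Subtype.ext hx')
        · obtain ⟨y, hy⟩ := g₁.surjective ⟨l, hl⟩
          have h7 : y * x.1 = x.1 * y := Subtype.ext (by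
            have h8 : (x.1 : G) ∈ Cs D₁ := by
              rw [eq_inv_of_mul_eq_one_left hx']; exact inv_mem (h4 x.2.2)
            exact mem_Cs.1 h8 _ y.2)
          have := congrArg (fun z => (g₁ z : G)) h7
          simpa [hy] using this
    exact ⟨_, Or.inr ⟨(MonoidHom.ofInjective hinj).symm.trans (g₁.prodCongr g₂)⟩⟩

end H42.SR
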