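import Cfsg.Agent.H42.SimXBFr
import Cfsg.Agent.H2.SimFrame
import Cfsg.Agent.H30.SimNC
import Cfsg.Agent.H69.SimSQ
import Cfsg.Agent.H10.SimK1
import Cfsg.Agent.H77.SimK2
import Cfsg.Agent.H94.SimK3
import Cfsg.Agent.H27.SxK4
import Cfsg.Agent.H23.SimK5
import Cfsg.Agent.H65.SimC3
import Cfsg.Agent.H92.SimRho
import Cfsg.Agent.H43.SimSw
import Cfsg.Agent.H25.SimN4
import Cfsg.Agent.H69.SimDg
import Cfsg.Agent.H19.SimNF
import Cfsg.Agent.H21.SimZ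
import Cfsg.Agent.H84.SimSF

/-! Tower SIM, chapter XA part two: the frame case. -/

set_option autoImplicit false

namespace H42.SX

theorem a3fin : A3 :=
  a3' H69.SimSQ.jobSQ H30.SimNC.jobNC H10.SimK1.jobK1 H77.SimK2.jobK2 H94.Sim.jobK3
    H27.SxK4.jobK4 H23.SimK5.jobK5
    (fun _ _ _ _ u q hF f h1 h2 h3 h4 => H2.SimFrame.frame u q hF f h1 h2 h3 h4)
    (H65.SimC3.jobC3 H92.SimRho.jobRho H43.SimSw.jobSw H25.SimN4.jobN4 H69.SimDg.jobDg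
      H19.SimNF.jobNF H21.SimZ.jobZ H84.SimSF.jobSF)

end H42.SX
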