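import Cfsg.Agent.H0.SimSpec

/-! Tower SIM, chapter XA: the two statements of part two. -/

set_option autoImplicit false

namespace H42.SX

open Subgroup Cfsg H98 Matrix H0.Sim

/-- The span of `E` is the diagonal ring of a frame. -/
def A3 : Prop := ∀ (n : ℕ) (F : Type) [Field F] [Fintype F] (u : Bool) (q p : ℕ) (Θ : Set (Jm n F))
  (H Q E : Subgroup (GL (Fin n) F)) (g : GL (Fin n) F), Cf u q p Θ H Q E g → p ≠ ringChar F →
  (∀ a ∈ E, ∀ b ∈ E, a * b = b * a) → ∀ f : Fin n → Mt n F, (∀ i, f i * f i = f i) →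
  (∀ i j, i ≠ j → f i * f j = 0) → (∀ i, f i ≠ 0) → ∑ i, f i = 1 →
  (u = true → ∀ i, ((f i).map (· ^ q))ᵀ = f i) →
  Submodule.span F (mat E) = Submodule.span F (Set.range f) → Small u q H

/-- The span of `E` is a field. -/
def A5 : Prop := ∀ (n : ℕ) (F : Type) [Field F] [Fintype F] (u : Bool) (q p : ℕ) (Θ : Set (Jm n F))
  (H Q E : Subgroup (GL (Fin n) F)) (g : GL (Fin n) F), Cf u q p Θ H Q E g → p ≠ ringChar F →
  (∀ a ∈ E, ∀ b ∈ E, a * b = b * a) →
  (∀ m ∈ Submodule.span F (mat E), m ≠ 0 → IsUnit m) → Small u q H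

end H42.SX
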