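import Cfsg.Agent.H42.SimXBA3
import Cfsg.Agent.H6.SimQSL
import Cfsg.Agent.H19.SimQSU
import Cfsg.Agent.H99.SimStL
import Cfsg.Agent.H49.SimStU
import Cfsg.Agent.H56.SimFK
import Cfsg.Agent.H39.SimCS
import Cfsg.Agent.H61.SimNQ
import Cfsg.Agent.H33.SimM2L
import Cfsg.Agent.H75.SimM2U
import Cfsg.Agent.H1.SimGa
import Cfsg.Agent.H66.SimFd
import Cfsg.Agent.H87.SimSr
import Cfsg.Agent.H17.SimNL
import Cfsg.Agent.H99.SimXBNU
import Cfsg.Agent.H32.SimSD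
import Cfsg.Agent.H4.SimSL
import Cfsg.Agent.H49.SimXbSU

/-! Tower SIM, chapter XA part two: the field case. -/

set_option autoImplicit false

namespace H42.SX

theorem sdfin : SD := H32.SimSD.jobSD H1.SimGa.jobGa H66.SimFd.jobFd H21.SimZ.jobZ

theorem a5fin : A5 :=
  a5 H69.SimSQ.jobSQ H30.SimNC.jobNC H10.SimK1.jobK1 H77.SimK2.jobK2 H94.Sim.jobK3
    H27.SxK4.jobK4 H23.SimK5.jobK5 H56.SimFK.jobFK H39.SimCS.jobCS
    (fun u => match u with
      | false => H33.SimM2L.jobM2L H99.SimStL.jobStL H6.SimQSL.jobQSL H61.SimNQ.jobNQ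
      | true => H75.SimM2U.jobM2U H49.SimStU.jobStU H19.SimQSU.jobQSU H61.SimNQ.jobNQ)
    (fun u => match u with
      | false => H4.SimSL.jobSL sdfin H17.SimNL.jobNL
      | true => H49.SimXbSU.jobSU sdfin H87.SimSr.jobSr H99.SimXBNU.jobNU)

end H42.SX
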