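import Cfsg.Agent.H42.SimXBSpec

/-! Tower SIM, chapter XA part two: the frame case from a block frame. -/

set_option autoImplicit false

namespace H42.SX

open Subgroup Cfsg H98 Matrix H0.Sim

def Frame : Prop := ∀ (n : ℕ) (F : Type) [Field F] [Fintype F] (u : Bool) (q : ℕ),
  Fintype.card F = (if u then q ^ 2 else q) → ∀ f : Fin n → Mt n F, (∀ i, f i * f i = f i) →
  (∀ i j, i ≠ j → f i * f j = 0) → ∑ i, f i = 1 → (u = true → ∀ i, ((f i).map (· ^ q))ᵀ = f i) →
  ∃ c ∈ Gam n F u q, ∃ k : Fin n → Fin n, ∀ i, f i = (c : Mt n F) *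
    Matrix.diagonal (fun x => if k x = i then 1 else 0) * ((c⁻¹ : GL (Fin n) F) : Mt n F)

theorem a3' (sq : JobSQ) (nc : JobNC) (k1 : JobK1) (k2 : JobK2) (k3 : JobK3) (k4 : JobK4)
    (k5 : JobK5) (fm : Frame) (c3 : C3) : A3 := by
  intro n F _ _ u q p Θ H Q E g c _ hab f h1 h2 h3 h4 h5 h6
  obtain ⟨b, hb⟩ := kit sq nc k1 k2 k3 k4 k5 c hab
  obtain ⟨c0, hc, k, hk⟩ := fm n F u q c.par.card f h1 h2 h4 h5
  have hs : Function.Surjective k := by
    intro i
    by_contra hne
    push Not at hne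
    apply h3 i
    rw [hk i]
    have : (Matrix.diagonal (fun x => if k x = i then (1 : F) else 0)) = 0 := by
      ext a b
      simp [Matrix.diagonal_apply, hne]
    rw [this]; simp
  have hinj : Function.Injective k := Finite.injective_iff_surjective.mpr hs
  have hf : ∀ x, f (k x) = fr c0 x := by
    intro x
    rw [hk, fr]
    congr 2
    ext a b
    by_cases hab : a = b
    · subst hab
      by_cases hx : a = x
      · subst hx; simp
      · simp [hinj.eq_iff, hx, Matrix.single_apply, Ne.symm hx]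
    · rw [Matrix.diagonal_apply_ne _ hab, Matrix.single_apply, if_neg]
      rintro ⟨rfl, rfl⟩
      exact hab rfl
  have hr : Set.range f = Set.range (fr c0) := by
    ext m
    constructor
    · rintro ⟨i, rfl⟩
      obtain ⟨x, rfl⟩ := hs i
      exact ⟨x, (hf x).symm⟩
    · rintro ⟨x, rfl⟩
      exact ⟨k x, hf x⟩
  exact c3 n F u q p H Q b c0 hc (by rwa [sp, h6, hr] at hb)

end H42.SX
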